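import Cfsg.Agent.Lib.RankOne.OddInvert

/-!
A TI subgroup `M` with `N(M) = M C_{N(M)}(z)`, `z` an involution, and `C(x)` of odd order for `x ∈ M#`.
Basic algebra, and the consequences of the property that every coset of `M` outside `N(M)`
contains an involution.
-/

set_option autoImplicit false
set_option linter.unusedSectionVars false
set_option linter.style.haveILetI false

namespace Cfsg.Agent.Lib.TIInv

open Cfsg.Agent.Lib.RankOne.OddInvert

variable {G : Type*} [Group G]

/-- The normalizer. -/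
abbrev NN (M : Subgroup G) : Subgroup G := Subgroup.normalizer (M : Set G)

/-- The hypotheses. -/
structure Hyp (M : Subgroup G) (z : G) : Prop where
  ne : M ≠ ⊥
  ti : ∀ g : G, ∀ x ∈ M, x ≠ 1 → g * x * g⁻¹ ∈ M → g ∈ NN M
  z2 : z * z = 1
  z1 : z ≠ 1
  zN : z ∈ NN M
  dec : ∀ y ∈ NN M, ∃ m ∈ M, ∃ c ∈ NN M, c * z = z * c ∧ y = m * c
  odd : ∀ x ∈ M, x ≠ 1 → Odd (Nat.card (Subgroup.centralizer ({x} : Set G)))

theorem NN_conj {M : Subgroup G} {g x : G} (hg : g ∈ NN M) (hx : x ∈ M) : g * x * g⁻¹ ∈ M :=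
  (Subgroup.mem_normalizer_iff.mp hg x).mp hx

theorem le_NN (M : Subgroup G) : M ≤ NN M := Subgroup.le_normalizer

variable {M : Subgroup G} {z : G}

theorem inv_self_of_sq {t : G} (ht : t * t = 1) : t⁻¹ = t := inv_eq_of_mul_eq_one_left ht

section Finite

variable [Finite G] (H : Hyp M z)
include H

/-- An involution does not commute with a non-identity element of `M`. -/
theorem no_comm {x t : G} (hx : x ∈ M) (hx1 : x ≠ 1) (ht2 : t * t = 1) (ht1 : t ≠ 1) :
    t * x ≠ x * t := by
  intro hc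
  have hodd := H.odd x hx hx1
  have hmem : t ∈ Subgroup.centralizer ({x} : Set G) := by
    rw [Subgroup.mem_centralizer_singleton_iff]
    exact hc
  have h2 : orderOf (⟨t, hmem⟩ : Subgroup.centralizer ({x} : Set G)) = 2 := by
    rw [Subgroup.orderOf_mk]
    apply orderOf_eq_prime (by rw [pow_two]; exact ht2) ht1
  have hd := orderOf_dvd_natCard (⟨t, hmem⟩ : Subgroup.centralizer ({x} : Set G))
  rw [h2] at hd
  exact (Nat.not_even_iff_odd.mpr hodd) (even_iff_two_dvd.mpr hd)

/-- `M` has odd order. -/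
theorem odd_M : Odd (Nat.card M) := by
  by_contra hc
  rw [Nat.not_odd_iff_even] at hc
  haveI : Fact (Nat.Prime 2) := ⟨Nat.prime_two⟩
  obtain ⟨x, hx⟩ := exists_prime_orderOf_dvd_card' (G := M) 2 hc.two_dvd
  have hx1 : (x : G) ≠ 1 := by
    intro h
    have : x = 1 := Subtype.ext h
    rw [this, orderOf_one] at hx
    omega
  have hx2 : (x : G) * x = 1 := by
    have h : x ^ 2 = 1 := by rw [← hx]; exact pow_orderOf_eq_one x
    rw [pow_two] at h
    exact congrArg Subtype.val h
  exact no_comm H x.2 hx1 hx2 hx1 rfl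

/-- An element of `M` squaring to `1` is `1`. -/
theorem eq_one_of_sq_M {x : G} (hx : x ∈ M) (h : x * x = 1) : x = 1 :=
  eq_one_of_sq (odd_M H) hx h

/-- An involution of `N(M)` inverts `M`. -/
theorem inv_of_invol {t x : G} (htN : t ∈ NN M) (ht2 : t * t = 1) (ht1 : t ≠ 1) (hx : x ∈ M) :
    t * x * t = x⁻¹ := by
  have hinv : t⁻¹ = t := inv_self_of_sq ht2
  obtain ⟨y, w, hy, hty, hw, htw, rfl⟩ :=
    exists_factor ht2 (odd_M H) (fun x hx => NN_conj htN hx) hx
  have hy1 : y = 1 := by
    by_contra hne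
    exact no_comm H hy hne ht2 ht1 hty
  subst hy1
  rw [hinv] at htw
  simpa using htw

theorem z_inv {x : G} (hx : x ∈ M) : z * x * z = x⁻¹ :=
  inv_of_invol H H.zN H.z2 H.z1 hx

/-- `M` is abelian. -/
theorem comm_M {x y : G} (hx : x ∈ M) (hy : y ∈ M) : x * y = y * x := by
  have h1 := z_inv H (mul_mem hx hy)
  have h2 : z * (x * y) * z = (z * x * z) * (z * y * z) := by
    have : (z * x * z) * (z * y * z) = z * x * (z * z) * y * z := by group
    rw [this, H.z2]
    group
  rw [h2, z_inv H hx, z_inv H hy] at h1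
  have h3 : (y * x)⁻¹ = (x * y)⁻¹ := by rw [← h1, mul_inv_rev]
  exact (inv_injective h3).symm

/-- An element of `M` commuting with `z` is trivial. -/
theorem eq_one_of_comm_z {x : G} (hx : x ∈ M) (h : x * z = z * x) : x = 1 := by
  by_contra hne
  exact no_comm H hx hne H.z2 H.z1 h.symm

/-- The form of an involution of `N(M)`. -/
theorem invol_form {t : G} (htN : t ∈ NN M) (ht2 : t * t = 1) (ht1 : t ≠ 1) :
    ∃ m ∈ M, t = m * z := by
  obtain ⟨m, hm, c, hcN, hcz, rfl⟩ := H.dec t htN
  have hcinv : ∀ x ∈ M, c * x * c⁻¹ = x⁻¹ := by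
    intro x hx
    have h1 := inv_of_invol H htN ht2 ht1 hx
    have h2 : m⁻¹ * ((m * c) * x * (m * c)⁻¹) * m = c * x * c⁻¹ := by group
    have h3 : (m * c)⁻¹ = m * c := inv_self_of_sq ht2
    rw [h3, h1] at h2
    rw [← h2]
    have hm' : m⁻¹ * x⁻¹ = x⁻¹ * m⁻¹ := comm_M H (inv_mem hm) (inv_mem hx)
    rw [hm']
    group
  have hcc : c * c = 1 := by
    have h := ht2
    have h1 : c * m * c⁻¹ = m⁻¹ := hcinv m hm
    have h2 : m * c * (m * c) = m * (c * m * c⁻¹) * (c * c) := by group
    rw [h2, h1] at h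
    simpa using h
  by_cases hM : ∃ x ∈ M, x ≠ 1
  · obtain ⟨x₀, hx₀, hx₀1⟩ := hM
    set d := c * z with hd
    have hdd : d * d = 1 := by
      have : d * d = c * (z * c) * z := by rw [hd]; group
      rw [this, ← hcz]
      have : c * (c * z) * z = (c * c) * (z * z) := by group
      rw [this, hcc, H.z2, one_mul]
    have hdmem : d ∈ Subgroup.centralizer ({x₀} : Set G) := by
      rw [Subgroup.mem_centralizer_singleton_iff]
      have h1 := z_inv H hx₀
      have h2 := hcinv x₀⁻¹ (inv_mem hx₀)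
      have h3 : d * x₀ * d⁻¹ = x₀ := by
        rw [hd]
        have hzi : z⁻¹ = z := inv_self_of_sq H.z2
        calc c * z * x₀ * (c * z)⁻¹ = c * (z * x₀ * z) * c⁻¹ := by
              rw [mul_inv_rev, hzi]; group
          _ = c * x₀⁻¹ * c⁻¹ := by rw [h1]
          _ = x₀ := by rw [h2, inv_inv]
      rw [mul_inv_eq_iff_eq_mul] at h3
      exact h3
    have hd1 : d = 1 := by
      have hodd := H.odd x₀ hx₀ hx₀1
      exact eq_one_of_sq hodd hdmem hdd
    have hcz' : c = z := by
      have : c * z = 1 := hd1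
      have hzi : z⁻¹ = z := inv_self_of_sq H.z2
      rw [← hzi]
      exact eq_inv_of_mul_eq_one_left this
    exact ⟨m, hm, by rw [hcz']⟩
  · exact absurd (by
      rw [Subgroup.eq_bot_iff_forall]
      intro x hx
      by_contra hne
      exact hM ⟨x, hx, hne⟩) H.ne

/-- Elements of `M z` are involutions. -/
theorem mz_sq {m : G} (hm : m ∈ M) : (m * z) * (m * z) = 1 := by
  have h1 := z_inv H hm
  calc (m * z) * (m * z) = m * (z * m * z) := by group
    _ = 1 := by rw [h1]; group

theorem z_not_mem : z ∉ M := by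
  intro h
  exact H.z1 (eq_one_of_sq_M H h H.z2)

theorem mz_ne {m : G} (hm : m ∈ M) : m * z ≠ 1 := by
  intro h
  apply z_not_mem H
  have : z = m⁻¹ := by
    rw [eq_inv_iff_mul_eq_one, ← mul_right_inj m⁻¹, mul_one]
    rw [show m⁻¹ * (z * m) = m⁻¹ * z * m by group]
    have h2 : z = m⁻¹ := eq_inv_of_mul_eq_one_right h
    rw [h2]
    group
  rw [this]
  exact inv_mem hm

/-- Elements of `M z` are conjugate to `z` under `M`. -/
theorem exists_conj_mz {m : G} (hm : m ∈ M) : ∃ a ∈ M, m * z = a * z * a⁻¹ := by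
  set a := m ^ ((Nat.card M + 1) / 2) with ha
  have haM : a ∈ M := pow_mem hm _
  have haa : a * a = m := pow_half_sq (odd_M H) hm
  refine ⟨a, haM, ?_⟩
  have h1 := z_inv H (inv_mem haM)
  rw [inv_inv] at h1
  calc m * z = a * (a * z) := by rw [← haa]; group
    _ = a * ((z * a⁻¹ * z) * z) := by rw [h1]
    _ = a * z * a⁻¹ * (z * z) := by group
    _ = a * z * a⁻¹ := by rw [H.z2, mul_one]

/-- An involution in `C_{N}(z)` is `z`. -/
theorem C0_invol {c : G} (hc : c ∈ NN M) (hcz : c * z = z * c) (h2 : c * c = 1) :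
    c = 1 ∨ c = z := by
  by_cases h1 : c = 1
  · exact Or.inl h1
  · right
    obtain ⟨m, hm, rfl⟩ := invol_form H hc h2 h1
    have : m * z = z * m := by
      have h3 : m * z * z = z * (m * z) := hcz
      rw [mul_assoc, H.z2, mul_one] at h3
      have h4 : z * (m * z) * z = z * m * (z * z) := by group
      rw [← h3] at h4
      rw [H.z2, mul_one] at h4
      rw [← h4]
    rw [eq_one_of_comm_z H hm this, one_mul]

end Finite

/-- Every coset of `M` outside `N(M)` contains an involution. -/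
def Star (M : Subgroup G) : Prop :=
  ∀ g : G, g ∉ NN M → ∃ m ∈ M, (g * m) * (g * m) = 1

section StarS

variable [Finite G] (H : Hyp M z) (S : Star M)
include H

/-- Uniqueness of the involution in the coset. -/
theorem t_unique {t m : G} (ht : t ∉ NN M) (ht2 : t * t = 1) (hm : m ∈ M)
    (h : (t * m) * (t * m) = 1) : m = 1 := by
  by_contra hne
  apply ht
  apply H.ti t m hm hne
  have h1 : t * m * t⁻¹ = m⁻¹ := by
    rw [inv_self_of_sq ht2]
    have : t * m * t * m = 1 := by rw [← h]; group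
    exact eq_inv_of_mul_eq_one_left this
  rw [h1]
  exact inv_mem hm

include S

/-- The involution `u` attached to an involution `t` outside `N(M)`: it lies in `z M`, commutes
with `t`. -/
theorem exists_u {t : G} (ht : t ∉ NN M) (ht2 : t * t = 1) :
    ∃ a ∈ M, t * (a * z * a⁻¹) = (a * z * a⁻¹) * t := by
  have hg : t * z ∉ NN M := fun hc => ht (by
    have := mul_mem hc (H.zN)
    rwa [mul_assoc, H.z2, mul_one] at this)
  obtain ⟨m₁, hm₁, h⟩ := S _ hg
  obtain ⟨a, ha, hconj⟩ := exists_conj_mz H (inv_mem hm₁)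
  refine ⟨a, ha, ?_⟩
  rw [← hconj]
  have hzm : z * m₁ = m₁⁻¹ * z := by
    have h1 := z_inv H hm₁
    calc z * m₁ = (z * m₁ * z) * z := by
          rw [mul_assoc (z * m₁), H.z2, mul_one]
      _ = m₁⁻¹ * z := by rw [h1]
  -- `u = t t' = z m₁`
  have hu : t * (t * z * m₁) = m₁⁻¹ * z := by
    rw [← hzm]
    calc t * (t * z * m₁) = (t * t) * (z * m₁) := by group
      _ = z * m₁ := by rw [ht2, one_mul]
  have huu : (m₁⁻¹ * z) * (m₁⁻¹ * z) = 1 := mz_sq H (inv_mem hm₁)
  have ht' : (t * z * m₁) * (t * z * m₁) = 1 := h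
  set t' := t * z * m₁ with ht'def
  rw [← hu]
  -- `t * (t * t') = (t * t') * t`
  have hcomm : (t * t') * (t * t') = 1 := by rw [hu]; exact huu
  have h4 : t' * t = t * t' := by
    have h5 : t' * t = (t * t')⁻¹ := by
      rw [mul_inv_rev, inv_self_of_sq ht', inv_self_of_sq ht2]
    rw [h5, inv_self_of_sq hcomm]
  calc t * (t * t') = (t * t) * t' := by group
    _ = t' := by rw [ht2, one_mul]
    _ = (t * t) * t' := by rw [ht2, one_mul]
    _ = t * (t * t') := by group
    _ = t * (t' * t) := by rw [h4]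
    _ = (t * t') * t := by group

end StarS

end Cfsg.Agent.Lib.TIInv
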