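import Cfsg.Agent.Lib.TIInv.Count

/-!
The branch `C_{N}(z) = {1, z}`: `C(z)` is an elementary abelian 2-group and the orders are known.
-/

set_option autoImplicit false
set_option linter.unusedSectionVars false
set_option linter.style.haveILetI false
set_option linter.unusedVariables false

namespace Cfsg.Agent.Lib.TIInv

variable {G : Type*} [Group G] [Finite G] {M : Subgroup G} {z : G}
variable (H : Hyp M z) (S : Star M)

/-- The arithmetic of the branch. -/
theorem arith_A {m j f : ℕ} (hf : 2 ≤ f) (hc : Nat.Coprime m f) (hm : 1 < m)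
    (h1 : j * f = m * (1 + (f - 1) * m)) (h2 : j ≤ m * (2 * f - 1)) :
    m = f + 1 ∨ m = 2 * f + 1 := by
  obtain ⟨g, rfl⟩ : ∃ g, f = g + 1 := ⟨f - 1, by omega⟩
  have e1 : g + 1 - 1 = g := by omega
  rw [e1] at h1
  have hg1 : 1 ≤ g := by omega
  -- `f ∣ 1 + g m`
  have hd : (g + 1) ∣ 1 + g * m := by
    have h3 : (g + 1) ∣ m * (1 + g * m) := ⟨j, by rw [← h1, mul_comm]⟩
    exact hc.symm.dvd_of_dvd_mul_left h3
  obtain ⟨s, hs⟩ := hd
  have hj : j = m * s := by
    have h3 : j * (g + 1) = (m * s) * (g + 1) := by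
      rw [h1, hs]
      ring
    exact Nat.eq_of_mul_eq_mul_right (by omega) h3
  have hs2 : s ≤ 2 * (g + 1) - 1 := by
    rw [hj] at h2
    exact Nat.le_of_mul_le_mul_left h2 (by omega)
  have e2 : 2 * (g + 1) - 1 = 2 * g + 1 := by omega
  rw [e2] at hs2 h2
  -- `m ≤ 2 f + 1`
  have hle : m ≤ 2 * (g + 1) + 1 := by
    have h4 : g * m ≤ g * (2 * (g + 1) + 1) := by
      have h5 : (g + 1) * s ≤ (g + 1) * (2 * g + 1) := Nat.mul_le_mul_left _ hs2
      nlinarith
    exact Nat.le_of_mul_le_mul_left h4 (by omega)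
  -- `f ∣ m - 1`
  have hd2 : (g + 1) ∣ m - 1 := by
    have h5 : (1 + g * m) + (m - 1) = (g + 1) * m := by
      have : m - 1 + 1 = m := by omega
      nlinarith
    have h6 : (g + 1) ∣ (1 + g * m) + (m - 1) := by
      rw [h5]
      exact Dvd.intro _ rfl
    exact (Nat.dvd_add_right ⟨s, hs⟩).mp h6
  obtain ⟨t, ht⟩ := hd2
  have ht1 : t ≠ 0 := by
    rintro rfl
    omega
  have ht3 : t ≤ 2 := by
    by_contra hc'
    have h7 : 3 ≤ t := by omega
    have h8 : (g + 1) * 3 ≤ (g + 1) * t := Nat.mul_le_mul_left _ h7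
    omega
  have : t = 1 ∨ t = 2 := by omega
  rcases this with rfl | rfl
  · left
    omega
  · right
    omega

include H S

theorem exists_Y (hN : NN M ≠ ⊤) : ∃ h, h * z = z * h ∧ h ∉ NN M := by
  obtain ⟨g, hg⟩ : ∃ g, g ∉ NN M := by
    by_contra hc
    push Not at hc
    exact hN (eq_top_iff.mpr fun g _ => hc g)
  obtain ⟨a, ha, b, hb, h1, h2⟩ := exists_h H S hg
  exact ⟨_, h1, h2⟩

theorem branch : (∀ c ∈ NN M, c * z = z * c → c = 1 ∨ c = z) ∨
    (∀ h k, h * z = z * h → h ∉ NN M → k * z = z * k → k ∉ NN M → h * k ∈ NN M) := by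
  by_contra hc
  push Not at hc
  obtain ⟨⟨c, hc, hcz, h1, h2⟩, h, k, hz, hN, kz, kN, hk⟩ := hc
  rcases C0_two H S hz hN kz kN hk hc hcz with h' | h'
  · exact h1 h'
  · exact h2 h'

section A

variable (hC : ∀ c ∈ NN M, c * z = z * c → c = 1 ∨ c = z)
include hC

omit S in
theorem card_C0_two : Nat.card (C0 M z) = 2 := by
  rw [Nat.card_eq_two_iff]
  refine ⟨1, ⟨z, mem_C0.mpr ⟨H.zN, rfl⟩⟩, ?_, ?_⟩
  · intro h
    exact H.z1 (congrArg Subtype.val h).symm
  · ext ⟨c, hc⟩
    simp only [Set.mem_insert_iff, Set.mem_singleton_iff, Set.mem_univ, iff_true]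
    obtain ⟨h1, h2⟩ := mem_C0.mp hc
    rcases hC c h1 h2 with rfl | rfl
    · left
      rfl
    · right
      rfl

theorem K_all_sq {k : G} (hk : k * z = z * k) : k * k = 1 := by
  by_cases hN : k ∈ NN M
  · rcases hC k hN hk with rfl | rfl
    · simp
    · exact H.z2
  · exact K_sq H S hk hN

theorem K_comm {a b : G} (ha : a * z = z * a) (hb : b * z = z * b) : a * b = b * a := by
  have hab : (a * b) * z = z * (a * b) := by
    calc a * b * z = a * (b * z) := by group
      _ = a * (z * b) := by rw [hb]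
      _ = (a * z) * b := by group
      _ = (z * a) * b := by rw [ha]
      _ = z * (a * b) := by group
  have h1 := K_all_sq H S hC hab
  have h2 := K_all_sq H S hC ha
  have h3 := K_all_sq H S hC hb
  have h4 : (a * b)⁻¹ = a * b := inv_self_of_sq h1
  rw [mul_inv_rev, inv_self_of_sq h3, inv_self_of_sq h2] at h4
  exact h4.symm

theorem K_pgroup : IsPGroup 2 (KK z) := by
  intro k
  refine ⟨1, ?_⟩
  apply Subtype.ext
  have := K_all_sq H S hC (mem_KK.mp k.2)
  simpa [pow_two] using this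

theorem card_K_eq (hN : NN M ≠ ⊤) : ∃ d, 1 ≤ d ∧ Nat.card (KK z) = 2 ^ (d + 1) := by
  haveI : Fact (Nat.Prime 2) := ⟨Nat.prime_two⟩
  obtain ⟨n, hn⟩ := IsPGroup.iff_card.mp (K_pgroup H S hC)
  have h1 := KK_card_split H
  rw [card_C0_two H hC] at h1
  obtain ⟨h, hz, hnN⟩ := exists_Y H S hN
  have h2 : 0 < Nat.card (YY M z) := by
    haveI : Nonempty (YY M z) := ⟨⟨h, hz, hnN⟩⟩
    exact Nat.card_pos
  have hn2 : 2 ≤ n := by
    by_contra hc
    have : n = 0 ∨ n = 1 := by omega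
    rcases this with rfl | rfl <;> omega
  refine ⟨n - 1, by omega, ?_⟩
  rw [hn]
  congr 1
  omega

/-- The two cases. -/
theorem A_cases (hN : NN M ≠ ⊤) (hm : 1 < Nat.card M) :
    ∃ d, 1 ≤ d ∧ Nat.card (KK z) = 2 ^ (d + 1) ∧
      (Nat.card M = 2 ^ d + 1 ∨ Nat.card M = 2 ^ (d + 1) + 1) ∧
      Nat.card G = 2 * Nat.card M * (1 + (2 ^ d - 1) * Nat.card M) ∧
      Nat.card (YY M z) = 2 * (2 ^ d - 1) ∧
      Nat.card (II G) = Nat.card M * (2 * 2 ^ d - 1) := by
  obtain ⟨d, hd, hq⟩ := card_K_eq H S hC hN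
  have h1 := KK_card_split H
  rw [card_C0_two H hC, hq] at h1
  have hp : 2 ≤ 2 ^ d := by
    calc 2 = 2 ^ 1 := rfl
      _ ≤ 2 ^ d := Nat.pow_le_pow_right (by norm_num) hd
  obtain ⟨g, hg⟩ : ∃ g, 2 ^ d = g + 1 := ⟨2 ^ d - 1, by omega⟩
  have hY : Nat.card (YY M z) = 2 * g := by
    have : 2 ^ (d + 1) = 2 * 2 ^ d := by rw [pow_succ]; ring
    omega
  have hG : Nat.card G = 2 * Nat.card M * (1 + g * Nat.card M) := by
    rw [card_G H S, card_C0_two H hC, hY]
    ring
  have hI : Nat.card (II G) = Nat.card M * (1 + 2 * g) := by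
    rw [card_II H S, hY]
    ring
  have hJ := card_conj_mul z
  rw [hq, hG] at hJ
  have hJ1 : Nat.card {t : G // ∃ g : G, t = g * z * g⁻¹} * (g + 1) =
      Nat.card M * (1 + g * Nat.card M) := by
    have e : 2 ^ (d + 1) = 2 * (g + 1) := by
      rw [pow_succ, hg]
      ring
    rw [e] at hJ
    have : 2 * (Nat.card {t : G // ∃ g : G, t = g * z * g⁻¹} * (g + 1)) =
        2 * (Nat.card M * (1 + g * Nat.card M)) := by
      rw [← mul_assoc, mul_comm 2, mul_assoc, hJ]
      ring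
    exact Nat.eq_of_mul_eq_mul_left (by norm_num) this
  have hJ2 : Nat.card {t : G // ∃ g : G, t = g * z * g⁻¹} ≤ Nat.card (II G) := by
    refine Nat.card_le_card_of_injective
      (fun t => (⟨t.1, ?_⟩ : II G)) ?_
    · obtain ⟨t, g, rfl⟩ := t
      apply orderOf_eq_prime
      · rw [pow_two]
        have : g * z * g⁻¹ * (g * z * g⁻¹) = g * (z * z) * g⁻¹ := by group
        rw [this, H.z2]
        group
      · intro h
        apply H.z1
        have h' : g * z * g⁻¹ = 1 := h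
        have : z = g⁻¹ * (g * z * g⁻¹) * g := by group
        rw [this, h']
        group
    · intro a b e
      exact Subtype.ext (congrArg (fun t : II G => t.1) e)
  have hcop : Nat.Coprime (Nat.card M) (g + 1) := by
    rw [← hg]
    exact Nat.Coprime.pow_right _ (Nat.coprime_two_right.mpr (odd_M H))
  have h5 := arith_A (m := Nat.card M) (j := Nat.card {t : G // ∃ g : G, t = g * z * g⁻¹})
    (f := g + 1) (by omega) hcop hm (by simpa using hJ1) (by
      rw [hI] at hJ2
      have : 2 * (g + 1) - 1 = 1 + 2 * g := by omega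
      rw [this]
      exact hJ2)
  refine ⟨d, hd, hq, ?_, ?_, ?_, ?_⟩
  · rw [hg]
    have : 2 ^ (d + 1) = 2 * (g + 1) := by
      rw [pow_succ, hg]
      ring
    rw [this]
    exact h5
  · have : 2 ^ d - 1 = g := by omega
    rw [this]
    exact hG
  · have : 2 ^ d - 1 = g := by omega
    rw [this]
    exact hY
  · rw [hI, hg]
    congr 1
    omega

end A

end Cfsg.Agent.Lib.TIInv
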