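import Cfsg.Agent.Lib.TIInv.BranchA
import Cfsg.Agent.S0199
import Cfsg.Agent.S0206
import Cfsg.Agent.Lib.Zass.RegField
import Cfsg.Agent.Lib.Core.Basic
import Cfsg.Prelude.Def_Transfer

/-!
The case `|M| = f + 1`, `|C(z)| = 2 f`: a Frobenius-like semidirect product with dihedral complement.
-/

set_option autoImplicit false
set_option linter.unusedSectionVars false
set_option linter.style.haveILetI false
set_option linter.unusedVariables false

namespace Cfsg.Agent.Lib.TIInv

open Cfsg.Agent.Lib.FPF.Basic Cfsg.Agent.Lib.Zass.RegField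
open scoped IsMulCommutative

variable {G : Type*} [Group G] [Finite G] {M : Subgroup G} {z : G}
variable (H : Hyp M z)
variable (hC : ∀ c ∈ NN M, c * z = z * c → c = 1 ∨ c = z)

/-- An injection `E × N → G`. -/
theorem card_mul_le_of_inf {E N : Subgroup G} (h : E ⊓ N = ⊥) :
    Function.Injective (fun p : E × N => (p.1 : G) * (p.2 : G)) := by
  rintro ⟨a, b⟩ ⟨a', b'⟩ e
  have e1 : (a : G) * b = a' * b' := e
  have e2 : (a' : G)⁻¹ * a = b' * (b : G)⁻¹ := by
    rw [inv_mul_eq_iff_eq_mul, ← mul_assoc, ← e1]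
    group
  have h3 : (a' : G)⁻¹ * a ∈ E ⊓ N := Subgroup.mem_inf.mpr ⟨mul_mem (inv_mem a'.2) a.2, by
    rw [e2]
    exact mul_mem b'.2 (inv_mem b.2)⟩
  rw [h, Subgroup.mem_bot, inv_mul_eq_one] at h3
  have h4 : (b : G) = b' := by
    rw [← h3] at e1
    exact mul_left_cancel e1
  exact Prod.ext (Subtype.ext h3.symm) (Subtype.ext h4)

include H hC

/-- Odd order elements of `N` are in `M`. -/
theorem odd_in_M {x : G} (hx : x ∈ NN M) {n : ℕ} (hn : Odd n) (hxn : x ^ n = 1) : x ∈ M := by
  obtain ⟨m, hm, c, hcN, hcz, rfl⟩ := H.dec x hx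
  rcases hC c hcN hcz with hc1 | hc1
  · rw [hc1]
    simpa using hm
  · exfalso
    rw [hc1] at hxn
    have h1 := mz_sq H hm
    have h2 : (m * z) ^ 2 = 1 := by
      rw [pow_two]
      exact h1
    have h3 : orderOf (m * z) ∣ 2 := orderOf_dvd_of_pow_eq_one h2
    have h4 : orderOf (m * z) ∣ n := orderOf_dvd_of_pow_eq_one hxn
    have h5 : orderOf (m * z) ∣ Nat.gcd 2 n := Nat.dvd_gcd h3 h4
    have h6 : Nat.gcd 2 n = 1 := (Nat.coprime_two_left).mpr hn
    rw [h6, Nat.dvd_one, orderOf_eq_one_iff] at h5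
    exact mz_ne H hm h5

/-- Elements of odd prime order are conjugate into `M` if `|G : N|` is a power of `2`. -/
theorem conj_to_M {d : ℕ} (hind : (NN M).index = 2 ^ d) {h₁ : G} {r : ℕ} (hr : r.Prime) (hr2 : r ≠ 2)
    (ho : orderOf h₁ = r) : ∃ k : G, k⁻¹ * h₁ * k ∈ M := by
  classical
  haveI : Fact r.Prime := ⟨hr⟩
  have hP : IsPGroup r (Subgroup.zpowers h₁) := by
    apply IsPGroup.of_card (n := 1)
    rw [Nat.card_zpowers, ho, pow_one]
  have hnd : ¬ r ∣ Nat.card (G ⧸ NN M) := by
    intro hd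
    change r ∣ (NN M).index at hd
    rw [hind] at hd
    have := hr.dvd_of_dvd_pow hd
    exact hr2 ((Nat.prime_dvd_prime_iff_eq hr Nat.prime_two).mp this)
  obtain ⟨q, hq⟩ := hP.nonempty_fixed_point_of_prime_not_dvd_card (G ⧸ NN M) hnd
  induction q using QuotientGroup.induction_on with | H k => ?_
  have h1 := hq ⟨h₁, Subgroup.mem_zpowers h₁⟩
  have h2 : (QuotientGroup.mk (h₁ * k) : G ⧸ NN M) = QuotientGroup.mk k := h1
  rw [eq_comm, QuotientGroup.eq] at h2
  have e : k⁻¹ * (h₁ * k) = k⁻¹ * h₁ * k := by group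
  rw [e] at h2
  refine ⟨k, odd_in_M H hC h2 (n := r) (hr.odd_of_ne_two hr2) ?_⟩
  rw [show (k⁻¹ * h₁ * k) ^ r = k⁻¹ * h₁ ^ r * k from by
    rw [show k⁻¹ * h₁ * k = (MulAut.conj k⁻¹) h₁ from by simp [], ← map_pow]
    simp []]
  rw [← ho, pow_orderOf_eq_one]
  group

/-- The product of an involution not conjugate to `z` and a conjugate is a `2`-element. -/
theorem two_power {d : ℕ} (hind : (NN M).index = 2 ^ d) {y : G} (hy2 : y * y = 1) (hy1 : y ≠ 1)
    (hyJ : ∀ g : G, y ≠ g * z * g⁻¹) (g : G) : ∃ a, orderOf (y * (g * y * g⁻¹)) = 2 ^ a := by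
  set w := y * (g * y * g⁻¹) with hw
  have hyi : y⁻¹ = y := inv_self_of_sq hy2
  have hinv : y * w * y = w⁻¹ := by
    rw [hw, mul_inv_rev, mul_inv_rev, mul_inv_rev, hyi, inv_inv]
    calc y * (y * (g * y * g⁻¹)) * y = (y * y) * (g * y * g⁻¹) * y := by group
      _ = g * y * g⁻¹ * y := by rw [hy2, one_mul]
      _ = _ := by group
  have hpr : ∀ {r : ℕ}, r.Prime → r ∣ orderOf w → r = 2 := by
    intro r hr hrd
    by_contra hr2
    have hne : orderOf w ≠ 0 := (orderOf_pos w).ne'
    have ho := orderOf_pow_orderOf_div hne hrd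
    set h₁ := w ^ (orderOf w / r) with hh₁
    obtain ⟨k, hk⟩ := conj_to_M H hC hind hr hr2 ho
    set x := k⁻¹ * h₁ * k with hx
    have hinv1 : y * h₁ * y = h₁⁻¹ := by
      rw [hh₁]
      have h3 : ∀ n : ℕ, y * w ^ n * y = (w⁻¹) ^ n := by
        intro n
        induction n with
        | zero => simpa using hy2
        | succ n ih =>
          rw [pow_succ, pow_succ, ← ih, ← hinv]
          calc y * (w ^ n * w) * y = y * w ^ n * y * (y * w * y) * (y * y) := by
                rw [hy2]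
                have : y * w ^ n * y * (y * w * y) = y * w ^ n * (y * y) * w * y := by group
                rw [this, hy2]
                group
            _ = _ := by rw [hy2, mul_one]
      rw [h3, inv_pow]
    have hx1 : x ≠ 1 := by
      intro h
      have h6 : h₁ = 1 := by
        have : h₁ = k * x * k⁻¹ := by rw [hx]; group
        rw [this, h]
        group
      rw [h6, orderOf_one] at ho
      exact hr.one_lt.ne ho
    set y' := k⁻¹ * y * k with hy'
    have hy'2 : y' * y' = 1 := by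
      have : y' * y' = k⁻¹ * (y * y) * k := by rw [hy']; group
      rw [this, hy2]
      group
    have hy'1 : y' ≠ 1 := by
      intro h
      apply hy1
      have : y = k * y' * k⁻¹ := by rw [hy']; group
      rw [this, h]
      group
    have hconj : y' * x * y'⁻¹ = x⁻¹ := by
      rw [inv_self_of_sq hy'2, hy', hx]
      have e : k⁻¹ * y * k * (k⁻¹ * h₁ * k) * (k⁻¹ * y * k) = k⁻¹ * (y * h₁ * y) * k := by group
      rw [e, hinv1]
      group
    have hy'N : y' ∈ NN M := H.ti y' x hk hx1 (by rw [hconj]; exact inv_mem hk)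
    obtain ⟨m, hm, hmz⟩ := invol_form H hy'N hy'2 hy'1
    obtain ⟨a, ha, hay⟩ := exists_conj_mz H hm
    apply hyJ (k * a)
    have : y = k * y' * k⁻¹ := by rw [hy']; group
    rw [this, hmz, hay]
    group
  have h2 := Nat.eq_prime_pow_of_unique_prime_dvd (orderOf_pos w).ne' hpr
  exact ⟨_, h2⟩

/-- `y` lies in `O₂(G)`. -/
theorem mem_core {d : ℕ} (hind : (NN M).index = 2 ^ d) {y : G} (hy2 : y * y = 1) (hy1 : y ≠ 1)
    (hyJ : ∀ g : G, y ≠ g * z * g⁻¹) : y ∈ Cfsg.pCore 2 G := by
  haveI : Fact (Nat.Prime 2) := ⟨Nat.prime_two⟩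
  have hyo : orderOf y = 2 := orderOf_eq_prime (by rw [pow_two]; exact hy2) hy1
  have hX : IsPGroup 2 (Subgroup.zpowers y) := by
    apply IsPGroup.of_card (n := 1)
    rw [Nat.card_zpowers, hyo, pow_one]
  obtain ⟨N, hNn, hNp, hyN⟩ := Cfsg.Agent.S0199.result (p := 2) (Subgroup.zpowers y) hX (by
    intro g
    have e1 : (Subgroup.zpowers y).map (MulAut.conj g).toMonoidHom = Subgroup.zpowers (g * y * g⁻¹) := by
      rw [MonoidHom.map_zpowers]
      rfl
    rw [e1]
    by_cases hne : y = g * y * g⁻¹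
    · rw [← hne, sup_idem]
      exact hX
    · have e2 : Subgroup.zpowers y ⊔ Subgroup.zpowers (g * y * g⁻¹) =
          Subgroup.closure ({y, g * y * g⁻¹} : Set G) := by
        rw [Subgroup.zpowers_eq_closure, Subgroup.zpowers_eq_closure, ← Subgroup.closure_union]
        rfl
      rw [e2]
      have hy'o : orderOf (g * y * g⁻¹) = 2 := by
        apply orderOf_eq_prime
        · rw [pow_two]
          have : g * y * g⁻¹ * (g * y * g⁻¹) = g * (y * y) * g⁻¹ := by group
          rw [this, hy2]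
          group
        · intro h
          apply hy1
          have : y = g⁻¹ * (g * y * g⁻¹) * g := by group
          rw [this, h]
          group
      obtain ⟨e⟩ := Cfsg.Agent.S0206.result y (g * y * g⁻¹) hyo hy'o hne
      obtain ⟨a, ha⟩ := two_power H hC hind hy2 hy1 hyJ g
      apply IsPGroup.of_card (n := a + 1)
      rw [Nat.card_congr e.toEquiv, DihedralGroup.nat_card, ha, pow_succ]
      ring)
  exact Cfsg.Agent.Lib.Core.Basic.le_pCore hNn hNp (hyN (Subgroup.mem_zpowers y))

/-- `E ∩ N = 1`. -/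
theorem core_inf (hM : ∃ a ∈ M, a ≠ 1) : Cfsg.pCore 2 G ⊓ NN M = ⊥ := by
  haveI : Fact (Nat.Prime 2) := ⟨Nat.prime_two⟩
  haveI hEn : (Cfsg.pCore 2 G).Normal := Cfsg.pCore_normal 2 G
  have hEp : IsPGroup 2 (Cfsg.pCore 2 G) := Cfsg.Agent.Lib.Core.Basic.pCore_isPGroup
  have hoddM := odd_M H
  -- 2-elements of `M` are trivial
  have h2M : ∀ x ∈ M, x ∈ Cfsg.pCore 2 G → x = 1 := by
    intro x hx hxE
    obtain ⟨n, hn⟩ := hEp ⟨x, hxE⟩
    have h1 : x ^ 2 ^ n = 1 := congrArg Subtype.val hn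
    have h2 : orderOf x ∣ 2 ^ n := orderOf_dvd_of_pow_eq_one h1
    have h3 : orderOf x ∣ Nat.card M := by
      rw [← Subgroup.orderOf_mk x hx]
      exact orderOf_dvd_natCard _
    have h4 : Nat.Coprime (2 ^ n) (Nat.card M) :=
      Nat.Coprime.pow_left _ (Nat.coprime_two_left.mpr hoddM)
    have h5 := Nat.eq_one_of_dvd_coprimes h4 h2 h3
    exact orderOf_eq_one_iff.mp h5
  rw [Subgroup.eq_bot_iff_forall]
  rintro x ⟨hxE, hxN⟩
  obtain ⟨m, hm, c, hcN, hcz, rfl⟩ := H.dec x hxN
  rcases hC c hcN hcz with hc1 | hc1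
  · rw [hc1, mul_one] at hxE ⊢
    exact h2M m hm hxE
  · exfalso
    rw [hc1] at hxE
    obtain ⟨a, ha, ha1⟩ := hM
    obtain ⟨b, hb, hbz⟩ := exists_conj_mz H hm
    have hzE : z ∈ Cfsg.pCore 2 G := by
      rw [hbz] at hxE
      have := hEn.conj_mem _ hxE b⁻¹
      have e : b⁻¹ * (b * z * b⁻¹) * b⁻¹⁻¹ = z := by group
      rwa [e] at this
    -- `[z, a] = a⁻²`
    have h1 : z * (a * z * a⁻¹) ∈ Cfsg.pCore 2 G := mul_mem hzE (hEn.conj_mem _ hzE a)
    have h2 := z_inv H ha
    have e : z * (a * z * a⁻¹) = a⁻¹ * a⁻¹ := by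
      have : z * (a * z * a⁻¹) = (z * a * z) * a⁻¹ := by group
      rw [this, h2]
    rw [e] at h1
    have h3 := h2M _ (mul_mem (inv_mem ha) (inv_mem ha)) h1
    have h4 : a⁻¹ = 1 := eq_one_of_sq_M H (inv_mem ha) h3
    exact ha1 (inv_eq_one.mp h4)

/-- The case `|M| = f + 1`. -/
theorem caseA1 (S : Star M) {d : ℕ} (hd : 1 ≤ d) (hq : Nat.card (KK z) = 2 ^ (d + 1))
    (hm : Nat.card M = 2 ^ d + 1) (hG : Nat.card G = 2 * Nat.card M * (1 + (2 ^ d - 1) * Nat.card M))
    (hI : Nat.card (II G) = Nat.card M * (2 * 2 ^ d - 1)) :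
    ∃ E : Subgroup G, E.Normal ∧ Cfsg.IsElementaryAbelian 2 E ∧ Nat.card E = 2 ^ (2 * d) ∧
      E ⊓ NN M = ⊥ ∧ E ⊔ NN M = ⊤ ∧ Nonempty (NN M ≃* DihedralGroup (2 ^ d + 1)) := by
  classical
  haveI : Fact (Nat.Prime 2) := ⟨Nat.prime_two⟩
  have hp : 2 ≤ 2 ^ d := by
    calc 2 = 2 ^ 1 := rfl
      _ ≤ 2 ^ d := Nat.pow_le_pow_right (by norm_num) hd
  obtain ⟨g, hg⟩ : ∃ g, 2 ^ d = g + 1 := ⟨2 ^ d - 1, by omega⟩
  have hf2 : 2 ^ (2 * d) = (g + 1) * (g + 1) := by
    rw [two_mul, pow_add, hg]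
  have e1 : 2 ^ d - 1 = g := by omega
  rw [e1, hm, hg] at hG
  rw [hm, hg] at hI
  have hN : Nat.card (NN M) = (g + 2) * 2 := by
    rw [card_NN H, card_C0_two H hC, hm, hg]
  have hG2 : Nat.card G = (g + 2) * 2 * ((g + 1) * (g + 1)) := by
    rw [hG]
    ring
  have hind : (NN M).index = 2 ^ (2 * d) := by
    have h1 := Subgroup.card_mul_index (NN M)
    rw [hN, hG2] at h1
    rw [hf2]
    exact Nat.eq_of_mul_eq_mul_left (by positivity) h1
  -- the number of conjugates of `z`
  have hJ := card_conj_mul z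
  rw [hq, hG2] at hJ
  have hJ1 : Nat.card {t : G // ∃ g : G, t = g * z * g⁻¹} = (g + 2) * (g + 1) := by
    have e : 2 ^ (d + 1) = 2 * (g + 1) := by
      rw [pow_succ, hg]
      ring
    rw [e] at hJ
    apply Nat.eq_of_mul_eq_mul_right (show 0 < 2 * (g + 1) by positivity)
    rw [hJ]
    ring
  have hJ2 : Nat.card {t : II G // ∃ g : G, t.1 = g * z * g⁻¹} = (g + 2) * (g + 1) := by
    rw [← hJ1]
    refine Nat.card_congr ⟨fun t => ⟨t.1.1, t.2⟩, fun t => ⟨⟨t.1, ?_⟩, t.2⟩, ?_, ?_⟩
    · obtain ⟨t, g, rfl⟩ := t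
      apply orderOf_eq_prime
      · rw [pow_two]
        have : g * z * g⁻¹ * (g * z * g⁻¹) = g * (z * z) * g⁻¹ := by group
        rw [this, H.z2]
        group
      · intro h
        apply H.z1
        have h' : g * z * g⁻¹ = 1 := h
        have : z = g⁻¹ * (g * z * g⁻¹) * g := by group
        rw [this, h']
        group
    · intro t
      rfl
    · intro t
      rfl
  have hY2 : Nat.card {t : II G // ¬ ∃ g : G, t.1 = g * z * g⁻¹} = (g + 2) * g := by
    have h1 := card_split (fun t : II G => ∃ g : G, t.1 = g * z * g⁻¹)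
    rw [hJ2, hI] at h1
    have e : 2 * (g + 1) - 1 = 2 * g + 1 := by omega
    rw [e, show g + 1 + 1 = g + 2 from rfl] at h1
    have e2 : (g + 2) * (2 * g + 1) = (g + 2) * (g + 1) + (g + 2) * g := by ring
    omega
  have hsq : ∀ t : II G, t.1 * t.1 = 1 := by
    intro t
    have := pow_orderOf_eq_one t.1
    rwa [t.2, pow_two] at this
  have hne1 : ∀ t : II G, t.1 ≠ 1 := by
    intro t h
    have := t.2
    rw [h, orderOf_one] at this
    omega
  set E := Cfsg.pCore 2 G with hE
  haveI hEn : E.Normal := Cfsg.pCore_normal 2 G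
  have hEp : IsPGroup 2 E := Cfsg.Agent.Lib.Core.Basic.pCore_isPGroup
  -- `M` is non-trivial
  have hMne : ∃ a ∈ M, a ≠ 1 := by
    by_contra hc
    push Not at hc
    apply H.ne
    rw [Subgroup.eq_bot_iff_forall]
    exact hc
  have hinf : E ⊓ NN M = ⊥ := core_inf H hC hMne
  -- the map
  let φ : Option {t : II G // ¬ ∃ g : G, t.1 = g * z * g⁻¹} → E := fun x =>
    match x with
    | none => 1
    | some t => ⟨t.1.1, mem_core H hC hind (hsq t.1) (hne1 t.1) (fun g h => t.2 ⟨g, h⟩)⟩
  have hφ : Function.Injective φ := by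
    rintro (⟨⟩ | t) (⟨⟩ | t') e
    · rfl
    · exfalso
      have : (1 : G) = t'.1.1 := congrArg Subtype.val e
      exact hne1 t'.1 this.symm
    · exfalso
      have : t.1.1 = (1 : G) := congrArg Subtype.val e
      exact hne1 t.1 this
    · have : t.1.1 = t'.1.1 := congrArg (fun x : E => (x : G)) e
      congr 1
      exact Subtype.ext (Subtype.ext this)
  have hcardO : Nat.card (Option {t : II G // ¬ ∃ g : G, t.1 = g * z * g⁻¹}) = (g + 1) * (g + 1) := by
    rw [Finite.card_option, hY2]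
    ring
  have hcE1 : (g + 1) * (g + 1) ≤ Nat.card E := by
    rw [← hcardO]
    exact Nat.card_le_card_of_injective φ hφ
  have hinj := card_mul_le_of_inf hinf
  have hcE2 : Nat.card E * Nat.card (NN M) ≤ Nat.card G := by
    rw [← Nat.card_prod]
    exact Nat.card_le_card_of_injective _ hinj
  have hcE3 : Nat.card E = (g + 1) * (g + 1) := by
    apply le_antisymm _ hcE1
    rw [hG2, hN, mul_comm] at hcE2
    exact Nat.le_of_mul_le_mul_left hcE2 (by positivity)
  have hφb : Function.Bijective φ := hφ.bijective_of_nat_card_le (by rw [hcardO, hcE3])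
  have hEsq : ∀ e ∈ E, e * e = 1 := by
    intro e he
    obtain ⟨x, hx⟩ := hφb.2 ⟨e, he⟩
    have hx' : ((φ x : E) : G) = e := congrArg Subtype.val hx
    rcases x with ⟨⟩ | t
    · have : e = 1 := hx'.symm
      rw [this, one_mul]
    · have : t.1.1 = e := hx'
      rw [← this]
      exact hsq t.1
  have hEcomm : ∀ a ∈ E, ∀ b ∈ E, a * b = b * a := by
    intro a ha b hb
    have h1 := hEsq _ (mul_mem ha hb)
    have h4 : (a * b)⁻¹ = a * b := inv_self_of_sq h1
    rw [mul_inv_rev, inv_self_of_sq (hEsq b hb), inv_self_of_sq (hEsq a ha)] at h4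
    exact h4.symm
  haveI hEc : IsMulCommutative E := ⟨⟨fun a b => Subtype.ext (hEcomm a a.2 b b.2)⟩⟩
  have hMcyc : IsCyclic M := by
    have hfpf : IsFPF ((conjEnd E).comp M.subtype) := by
      intro a ha w hw
      have h1 : (((conjEnd E (a : G) w).toMul : E) : G) = ((w.toMul : E) : G) := by
        have : (conjEnd E (a : G) w) = w := hw
        rw [this]
      rw [conjEnd_coe] at h1
      set e : G := ((w.toMul : E) : G) with he
      have hee := hEsq e (w.toMul : E).2
      have ha1 : (a : G) ≠ 1 := fun h => ha (Subtype.ext h)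
      have he1 : e = 1 := by
        by_contra hne
        apply no_comm H a.2 ha1 hee hne
        rw [mul_inv_eq_iff_eq_mul] at h1
        exact h1.symm
      apply Additive.toMul.injective
      apply Subtype.ext
      exact he1
    haveI : Nontrivial (Additive E) := by
      have h1 : 1 < Nat.card (Additive E) := by
        have : Nat.card (Additive E) = Nat.card E := Nat.card_congr Additive.toMul
        rw [this, hcE3]
        have : 1 ≤ g := by omega
        nlinarith
      exact Finite.one_lt_card_iff_nontrivial.mp h1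
    exact isCyclic_of_comm hfpf (fun a b => Subtype.ext (comm_M H a.2 b.2))
  refine ⟨E, hEn, ⟨hEc, ?_⟩, ?_, hinf, ?_, ?_⟩
  · intro a ha
    rw [pow_two]
    exact hEsq a ha
  · rw [hcE3, hf2]
  · -- `E ⊔ N = ⊤`
    have hb : Function.Bijective (fun p : E × NN M => (p.1 : G) * (p.2 : G)) :=
      hinj.bijective_of_nat_card_le (by
        rw [Nat.card_prod, hcE3, hN, hG2]
        exact le_of_eq (by ring))
    rw [eq_top_iff]
    intro x _
    obtain ⟨⟨a, b⟩, hab⟩ := hb.2 x
    have e2 : (a : G) * b = x := hab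
    rw [← e2]
    exact mul_mem (Subgroup.mem_sup_left a.2) (Subgroup.mem_sup_right b.2)
  · obtain ⟨g₀, hg₀⟩ := hMcyc.exists_generator
    have ho : orderOf (g₀ : G) = g + 2 := by
      rw [Subgroup.orderOf_coe, orderOf_eq_card_of_forall_mem_zpowers hg₀, hm, hg]
    have hg₀ne : (g₀ : G) ≠ 1 := by
      intro h
      rw [h, orderOf_one] at ho
      omega
    have hy₂ : (z * (g₀ : G)) * (z * (g₀ : G)) = 1 := by
      have := z_inv H g₀.2
      calc (z * (g₀ : G)) * (z * (g₀ : G)) = (z * g₀ * z) * g₀ := by group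
        _ = 1 := by rw [this]; group
    have hzy : z ≠ z * (g₀ : G) := by
      intro h
      apply hg₀ne
      have := mul_left_cancel (a := z) (b := 1) (c := (g₀ : G)) (by rw [mul_one]; exact h)
      exact this.symm
    have hy₂1 : z * (g₀ : G) ≠ 1 := by
      intro h
      have h1 : z = (g₀ : G)⁻¹ := eq_inv_of_mul_eq_one_left h
      apply z_not_mem H
      rw [h1]
      exact inv_mem g₀.2
    have hzo : orderOf z = 2 := orderOf_eq_prime (by rw [pow_two]; exact H.z2) H.z1
    have hy₂o : orderOf (z * (g₀ : G)) = 2 := orderOf_eq_prime (by rw [pow_two]; exact hy₂) hy₂1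
    obtain ⟨e⟩ := Cfsg.Agent.S0206.result z (z * (g₀ : G)) hzo hy₂o hzy
    have eo : orderOf (z * (z * (g₀ : G))) = 2 ^ d + 1 := by
      rw [← mul_assoc, H.z2, one_mul, ho, hg]
    rw [eo] at e
    have hcl : NN M = Subgroup.closure ({z, z * (g₀ : G)} : Set G) := by
      apply le_antisymm
      · intro y hy
        have hzc : z ∈ Subgroup.closure ({z, z * (g₀ : G)} : Set G) :=
          Subgroup.subset_closure (by simp)
        have hgc : (g₀ : G) ∈ Subgroup.closure ({z, z * (g₀ : G)} : Set G) := by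
          have h1 : z * (g₀ : G) ∈ Subgroup.closure ({z, z * (g₀ : G)} : Set G) :=
            Subgroup.subset_closure (by simp)
          have h2 := mul_mem hzc h1
          rwa [← mul_assoc, H.z2, one_mul] at h2
        have hMc : ∀ x ∈ M, x ∈ Subgroup.closure ({z, z * (g₀ : G)} : Set G) := by
          intro x hx
          obtain ⟨k, hk⟩ := Subgroup.mem_zpowers_iff.mp (hg₀ ⟨x, hx⟩)
          have h1 : (g₀ : G) ^ k = x := by
            have := congrArg Subtype.val hk
            simpa using this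
          rw [← h1]
          exact zpow_mem hgc k
        obtain ⟨m, hm', c, hcN, hcz, rfl⟩ := H.dec y hy
        rcases hC c hcN hcz with hc1 | hc1
        · rw [hc1, mul_one]
          exact hMc m hm'
        · rw [hc1]
          exact mul_mem (hMc m hm') hzc
      · rw [Subgroup.closure_le]
        rintro x (rfl | hx)
        · exact H.zN
        · rw [Set.mem_singleton_iff] at hx
          rw [hx]
          exact mul_mem H.zN (le_NN M g₀.2)
    exact ⟨(MulEquiv.subgroupCongr hcl).trans e⟩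

end Cfsg.Agent.Lib.TIInv
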