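import Cfsg.Agent.Lib.TIInv.BranchA

/-!
The branch where `C(z) = C₀ ∪ h C₀`: `G ⧸ N` is a Zassenhaus set.
-/

set_option autoImplicit false
set_option linter.unusedSectionVars false
set_option linter.style.haveILetI false
set_option linter.unusedVariables false

namespace Cfsg.Agent.Lib.TIInv

open MulAction

/-- Four elements do not exhaust a large type. -/
theorem exists_not_mem_four {Q : Type*} [Finite Q] (h : 4 < Nat.card Q) (a b c d : Q) :
    ∃ q, q ≠ a ∧ q ≠ b ∧ q ≠ c ∧ q ≠ d := by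
  classical
  haveI := Fintype.ofFinite Q
  by_contra hc
  push Not at hc
  have hsub : (Finset.univ : Finset Q) ⊆ {a, b, c, d} := by
    intro q _
    by_cases h1 : q = a
    · simp [h1]
    by_cases h2 : q = b
    · simp [h2]
    by_cases h3 : q = c
    · simp [h3]
    simp [hc q h1 h2 h3]
  have h3 := Finset.card_le_card hsub
  have h4 : ({a, b, c, d} : Finset Q).card ≤ 4 := Finset.card_le_four
  rw [Finset.card_univ, ← Nat.card_eq_fintype_card] at h3
  omega

variable {G : Type*} [Group G] [Finite G] {M : Subgroup G} {z : G}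

/-- The base point. -/
abbrev pt0 (M : Subgroup G) : G ⧸ NN M := QuotientGroup.mk 1

omit [Finite G] in
theorem fix_iff {g k : G} : g • (QuotientGroup.mk k : G ⧸ NN M) = QuotientGroup.mk k ↔ k⁻¹ * g * k ∈ NN M := by
  have e : (g • (QuotientGroup.mk k : G ⧸ NN M)) = QuotientGroup.mk (g * k) := rfl
  rw [e, eq_comm, QuotientGroup.eq]
  have e2 : k⁻¹ * (g * k) = k⁻¹ * g * k := by group
  rw [e2]

omit [Finite G] in
theorem fix_pt0 {g : G} : g • pt0 M = pt0 M ↔ g ∈ NN M := by
  rw [pt0, fix_iff]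
  simp

omit [Finite G] in
theorem mk_ne_pt0 {k : G} : (QuotientGroup.mk k : G ⧸ NN M) ≠ pt0 M ↔ k ∉ NN M := by
  rw [pt0, ne_eq, eq_comm, QuotientGroup.eq]
  simp

variable (H : Hyp M z) (S : Star M)
variable (hB : ∀ h k, h * z = z * h → h ∉ NN M → k * z = z * k → k ∉ NN M → h * k ∈ NN M)

section
include H S hB

/-- `|Y| = |C₀|`. -/
theorem card_Y_B {h : G} (hz : h * z = z * h) (hN : h ∉ NN M) :
    Nat.card (YY M z) = Nat.card (C0 M z) := by
  symm
  have hhh := K_sq H S hz hN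
  have hmem : ∀ c : C0 M z, (h * (c : G)) * z = z * (h * (c : G)) ∧ h * (c : G) ∉ NN M := by
    intro c
    obtain ⟨h1, h2⟩ := mem_C0.mp c.2
    constructor
    · calc h * (c : G) * z = h * ((c : G) * z) := by group
        _ = h * (z * (c : G)) := by rw [h2]
        _ = (h * z) * (c : G) := by group
        _ = (z * h) * (c : G) := by rw [hz]
        _ = z * (h * (c : G)) := by group
    · intro hc
      apply hN
      have := mul_mem hc (inv_mem h1)
      rwa [mul_inv_cancel_right] at this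
  refine Nat.card_congr (Equiv.ofBijective (fun c : C0 M z => (⟨h * c, hmem c⟩ : YY M z)) ⟨?_, ?_⟩)
  · intro c c' e
    have e1 : h * (c : G) = h * c' := congrArg Subtype.val e
    exact Subtype.ext (mul_left_cancel e1)
  · rintro ⟨k, hk, hkN⟩
    have h1 := hB h k hz hN hk hkN
    have h2 : (h * k) * z = z * (h * k) := by
      calc h * k * z = h * (k * z) := by group
        _ = h * (z * k) := by rw [hk]
        _ = (h * z) * k := by group
        _ = (z * h) * k := by rw [hz]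
        _ = z * (h * k) := by group
    refine ⟨⟨h * k, mem_C0.mpr ⟨h1, h2⟩⟩, ?_⟩
    apply Subtype.ext
    show h * (h * k) = k
    rw [← mul_assoc, hhh, one_mul]

/-- The number of points. -/
theorem card_Om {h : G} (hz : h * z = z * h) (hN : h ∉ NN M) :
    Nat.card (G ⧸ NN M) = Nat.card M + 1 := by
  have h1 := Subgroup.card_mul_index (NN M)
  have h2 := card_G H S
  rw [card_Y_B H S hB hz hN] at h2
  rw [card_NN H, h2] at h1
  have h3 : 0 < Nat.card M * Nat.card (C0 M z) := Nat.mul_pos Nat.card_pos Nat.card_pos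
  apply Nat.eq_of_mul_eq_mul_left h3
  change Nat.card M * Nat.card (C0 M z) * (NN M).index = _
  rw [h1]
  ring

/-- `M` acts regularly on the points other than the base point. -/
theorem M_reg {h : G} (hz : h * z = z * h) (hN : h ∉ NN M) {y w : G ⧸ NN M} (hy : y ≠ pt0 M)
    (hw : w ≠ pt0 M) : ∃! u : M, (u : G) • y = w := by
  classical
  have hfree : ∀ u u' : M, (u : G) • y = (u' : G) • y → u = u' := by
    intro u u' e
    induction y using QuotientGroup.induction_on with | H k => ?_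
    have hk : k ∉ NN M := mk_ne_pt0.mp hy
    have h1 : ((u' : G)⁻¹ * u) • (QuotientGroup.mk k : G ⧸ NN M) = QuotientGroup.mk k := by
      rw [mul_smul, e, inv_smul_smul]
    rw [fix_iff] at h1
    have h2 := claimC' H S hk (mul_mem (inv_mem u'.2) u.2) h1
    rw [inv_mul_eq_one] at h2
    exact Subtype.ext h2.symm
  have hmem : ∀ u : M, (u : G) • y ≠ pt0 M := by
    intro u hu
    apply hy
    have h1 : (u : G) • pt0 M = pt0 M := fix_pt0.mpr (le_NN M u.2)
    rw [← h1] at hu
    exact MulAction.injective _ hu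
  let Φ : M → {p : G ⧸ NN M // p ≠ pt0 M} := fun u => ⟨(u : G) • y, hmem u⟩
  have hΦ : Function.Injective Φ := fun u u' e => hfree u u' (congrArg Subtype.val e)
  have hc : Nat.card {p : G ⧸ NN M // p ≠ pt0 M} = Nat.card M := by
    have h4 := card_split (fun p : G ⧸ NN M => p = pt0 M)
    have h5 : Nat.card {p : G ⧸ NN M // p = pt0 M} = 1 := by simp
    have h6 := card_Om H S hB hz hN
    have h7 : Nat.card {p : G ⧸ NN M // p ≠ pt0 M} =
        Nat.card {p : G ⧸ NN M // ¬ p = pt0 M} := rfl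
    omega
  have hb := hΦ.bijective_of_nat_card_le (le_of_eq hc)
  obtain ⟨u, hu⟩ := hb.2 ⟨w, hw⟩
  refine ⟨u, congrArg Subtype.val hu, fun u' hu' => hfree _ _ ?_⟩
  rw [hu']
  exact (congrArg Subtype.val hu).symm

/-- Base case of the three-point condition. -/
theorem fix_base {h k g : G} (hz : h * z = z * h) (hN : h ∉ NN M) (hgN : g ∈ NN M)
    (hgh : h * g * h ∈ NN M) (hk : k ∉ NN M) (hkh : h⁻¹ * k ∉ NN M) (hgk : k⁻¹ * g * k ∈ NN M) :
    g = 1 := by
  by_contra hg1
  have hgz := K_N2 H S hz hN hgN hgh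
  have hzk : k⁻¹ * z * k ∈ NN M := by
    by_cases hgg : g * g = 1
    · rcases C0_invol H hgN hgz hgg with h1 | h1
      · exact absurd h1 hg1
      · rw [h1] at hgk
        exact hgk
    · exact fix_C0 H S hgN hgz hgg hgk
  obtain ⟨a, ha, hka⟩ := fix_z H S hzk
  have hkaN : k * a ∉ NN M := fun hc => hk (by
    have := mul_mem hc (inv_mem (le_NN M ha))
    rwa [mul_inv_cancel_right] at this)
  have h1 := hB h (k * a) hz hN hka hkaN
  apply hkh
  have hhi : h⁻¹ = h := inv_self_of_sq (K_sq H S hz hN)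
  rw [hhi]
  have := mul_mem h1 (inv_mem (le_NN M ha))
  have e : h * (k * a) * a⁻¹ = h * k := by group
  rwa [e] at this

/-- Double transitivity from the base pair. -/
theorem two_base {h : G} (hz : h * z = z * h) (hN : h ∉ NN M) {x y : G ⧸ NN M} (hxy : x ≠ y) :
    ∃ v : G, v • pt0 M = x ∧ v • (QuotientGroup.mk h : G ⧸ NN M) = y := by
  induction x using QuotientGroup.induction_on with | H g => ?_
  have h1 : g⁻¹ • y ≠ pt0 M := by
    intro hc
    apply hxy
    have h2 : y = g • pt0 M := by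
      rw [← hc, smul_inv_smul]
    rw [h2]
    show (QuotientGroup.mk g : G ⧸ NN M) = QuotientGroup.mk (g * 1)
    rw [mul_one]
  obtain ⟨u, hu, -⟩ := M_reg H S hB hz hN (y := (QuotientGroup.mk h : G ⧸ NN M)) (w := g⁻¹ • y)
    (mk_ne_pt0.mpr hN) h1
  refine ⟨g * u, ?_, ?_⟩
  · rw [mul_smul, fix_pt0.mpr (le_NN M u.2)]
    show (QuotientGroup.mk (g * 1) : G ⧸ NN M) = QuotientGroup.mk g
    rw [mul_one]
  · rw [mul_smul, hu, smul_inv_smul]

/-- The three-point condition. -/
theorem fix3_B {h : G} (hz : h * z = z * h) (hN : h ∉ NN M) (g : G) (a b c : G ⧸ NN M)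
    (hab : a ≠ b) (hbc : b ≠ c) (hac : a ≠ c) (h1 : g • a = a) (h2 : g • b = b) (h3 : g • c = c) :
    g = 1 := by
  obtain ⟨v, hva, hvb⟩ := two_base H S hB hz hN hab
  have hh := K_sq H S hz hN
  have hhi : h⁻¹ = h := inv_self_of_sq hh
  -- transport
  have e1 : (v⁻¹ * g * v) • pt0 M = pt0 M := by
    rw [mul_smul, mul_smul, hva, h1, ← hva, inv_smul_smul]
  have e2 : (v⁻¹ * g * v) • (QuotientGroup.mk h : G ⧸ NN M) = QuotientGroup.mk h := by
    rw [mul_smul, mul_smul, hvb, h2, ← hvb, inv_smul_smul]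
  obtain ⟨k, hc'⟩ := QuotientGroup.mk_surjective (v⁻¹ • c)
  have hc'' : (QuotientGroup.mk k : G ⧸ NN M) = v⁻¹ • c := hc'
  have e3 : (v⁻¹ * g * v) • (QuotientGroup.mk k : G ⧸ NN M) = QuotientGroup.mk k := by
    rw [hc'', mul_smul, mul_smul, smul_inv_smul, h3]
  have hc'a : (QuotientGroup.mk k : G ⧸ NN M) ≠ pt0 M := by
    intro hc
    apply hac
    rw [← hva, ← hc, hc'', smul_inv_smul]
  have hc'b : (QuotientGroup.mk k : G ⧸ NN M) ≠ QuotientGroup.mk h := by
    intro hc
    apply hbc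
    rw [← hvb, ← hc, hc'', smul_inv_smul]
  have hk : k ∉ NN M := mk_ne_pt0.mp hc'a
  have hkh : h⁻¹ * k ∉ NN M := by
    intro hc
    apply hc'b
    rw [eq_comm, QuotientGroup.eq]
    exact hc
  have hgN : v⁻¹ * g * v ∈ NN M := fix_pt0.mp e1
  have hgh : h * (v⁻¹ * g * v) * h ∈ NN M := by
    have := fix_iff.mp e2
    rwa [hhi] at this
  have hgk := fix_iff.mp e3
  have hg1 := fix_base H S hB hz hN hgN hgh hk hkh hgk
  have : g = v * (v⁻¹ * g * v) * v⁻¹ := by group
  rw [this, hg1]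
  group

/-- `C₀` acts freely on `M#`. -/
theorem C0_free {h x c : G} (hz : h * z = z * h) (hN : h ∉ NN M) (hx : x ∈ M) (hx1 : x ≠ 1)
    (hcN : c ∈ NN M) (hcz : c * z = z * c) (hcx : c * x = x * c) : c = 1 := by
  by_contra hc1
  have hc2 := K_C0 H S hz hN hcN hcz
  have hb : (QuotientGroup.mk h : G ⧸ NN M) ≠ pt0 M := mk_ne_pt0.mpr hN
  have hfb : c • (QuotientGroup.mk h : G ⧸ NN M) = QuotientGroup.mk h := by
    rw [fix_iff, inv_self_of_sq (K_sq H S hz hN), hc2]
    exact inv_mem hcN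
  have hfa : c • pt0 M = pt0 M := fix_pt0.mpr hcN
  have hfw : c • (x • (QuotientGroup.mk h : G ⧸ NN M)) = x • (QuotientGroup.mk h : G ⧸ NN M) := by
    rw [← mul_smul, hcx, mul_smul, hfb]
  have hw1 : x • (QuotientGroup.mk h : G ⧸ NN M) ≠ pt0 M := by
    intro hc
    apply hb
    have h1 : x • pt0 M = pt0 M := fix_pt0.mpr (le_NN M hx)
    rw [← h1] at hc
    exact MulAction.injective _ hc
  have hw2 : (QuotientGroup.mk h : G ⧸ NN M) ≠ x • (QuotientGroup.mk h : G ⧸ NN M) := by
    intro hc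
    apply hx1
    have h1 := fix_iff.mp hc.symm
    exact claimC' H S hN hx h1
  exact hc1 (fix3_B H S hB hz hN c (pt0 M) _ _ (Ne.symm hb) hw2 (Ne.symm hw1) hfa hfb hfw)

/-- `|C₀| ≤ |M| - 1`. -/
theorem card_C0_le {h : G} (hz : h * z = z * h) (hN : h ∉ NN M) :
    Nat.card (C0 M z) + 1 ≤ Nat.card M := by
  classical
  obtain ⟨x, hx, hx1⟩ : ∃ x ∈ M, x ≠ 1 := by
    by_contra hc
    push Not at hc
    apply H.ne
    rw [Subgroup.eq_bot_iff_forall]
    exact hc
  have h1 : Nat.card (C0 M z) ≤ Nat.card {w : M // ¬ w = 1} := by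
    refine Nat.card_le_card_of_injective
      (fun c : C0 M z => (⟨⟨(c : G) * x * (c : G)⁻¹, NN_conj (mem_C0.mp c.2).1 hx⟩, ?_⟩ : {w : M // ¬ w = 1})) ?_
    · intro h2
      have h3 : (c : G) * x * (c : G)⁻¹ = 1 := congrArg Subtype.val h2
      apply hx1
      have : x = (c : G)⁻¹ * ((c : G) * x * (c : G)⁻¹) * c := by group
      rw [this, h3]
      group
    · intro c c' e
      have e1 : (c : G) * x * (c : G)⁻¹ = (c' : G) * x * (c' : G)⁻¹ :=
        congrArg (fun w : {w : M // ¬ w = 1} => ((w : M) : G)) e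
      have hd : (c' : G)⁻¹ * c ∈ C0 M z := mul_mem (inv_mem c'.2) c.2
      obtain ⟨hd1, hd2⟩ := mem_C0.mp hd
      have hcx : ((c' : G)⁻¹ * c) * x = x * ((c' : G)⁻¹ * c) := by
        have e2 : ((c' : G)⁻¹ * c) * x = (c' : G)⁻¹ * ((c : G) * x * (c : G)⁻¹) * c := by group
        rw [e2, e1]
        group
      have h4 := C0_free H S hB hz hN hx hx1 hd1 hd2 hcx
      rw [inv_mul_eq_one] at h4
      exact Subtype.ext h4.symm
  have h5 := card_split (fun w : M => w = 1)
  have h6 : Nat.card {w : M // w = 1} = 1 := by simp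
  omega

/-- There is no regular normal subgroup. -/
theorem no_regular {h : G} (hz : h * z = z * h) (hN : h ∉ NN M) (hm5 : 5 ≤ Nat.card M)
    (Q : Subgroup G) (hQ : Q.Normal) (htr : IsPretransitive Q (G ⧸ NN M))
    (hfree : ∀ x : G ⧸ NN M, stabilizer Q x = ⊥) : False := by
  classical
  haveI : Fact (Nat.Prime 2) := ⟨Nat.prime_two⟩
  have hzi : z⁻¹ = z := inv_self_of_sq H.z2
  have hinj : ∀ q q' : Q, (q : G) • pt0 M = (q' : G) • pt0 M → q = q' := by
    intro q q' e
    have h1 : q'⁻¹ * q ∈ stabilizer Q (pt0 M) := by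
      rw [mem_stabilizer_iff]
      change ((q' : G)⁻¹ * q) • pt0 M = pt0 M
      rw [mul_smul, e, inv_smul_smul]
    rw [hfree, Subgroup.mem_bot, inv_mul_eq_one] at h1
    exact h1.symm
  have hsurj : ∀ p : G ⧸ NN M, ∃ q : Q, (q : G) • pt0 M = p := by
    intro p
    exact htr.exists_smul_eq (pt0 M) p
  have hcard : Nat.card Q = Nat.card M + 1 := by
    rw [← card_Om H S hB hz hN]
    exact Nat.card_congr (Equiv.ofBijective (fun q : Q => (q : G) • pt0 M)
      ⟨fun q q' e => hinj q q' e, hsurj⟩)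
  have hodd := odd_M H
  have heven : 2 ∣ Nat.card Q := by
    rw [hcard]
    exact (Odd.add_one hodd).two_dvd
  obtain ⟨t, ht⟩ := exists_prime_orderOf_dvd_card' (G := Q) 2 heven
  have ht2 : (t : G) * t = 1 := by
    have h1 : t ^ 2 = 1 := by rw [← ht]; exact pow_orderOf_eq_one t
    rw [pow_two] at h1
    exact congrArg Subtype.val h1
  have ht1 : t ≠ 1 := by
    rintro rfl
    rw [orderOf_one] at ht
    omega
  have hne : ∀ q : Q, q ≠ 1 → (q : G) • pt0 M ≠ pt0 M := by
    intro q hq hc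
    apply hq
    apply hinj
    rw [hc]
    simp
  -- the exponent is two
  have hexp : ∀ q : Q, (q : G) * q = 1 := by
    intro q
    by_cases hq : q = 1
    · rw [hq]
      simp
    · obtain ⟨u, hu, -⟩ := M_reg H S hB hz hN (hne t ht1) (hne q hq)
      have hut : (u : G) * t * (u : G)⁻¹ ∈ Q := hQ.conj_mem _ t.2 _
      have h1 : (⟨(u : G) * t * (u : G)⁻¹, hut⟩ : Q) = q := by
        apply hinj
        show ((u : G) * t * (u : G)⁻¹) • pt0 M = (q : G) • pt0 M
        rw [mul_smul, mul_smul, ← hu]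
        congr 2
        rw [inv_smul_eq_iff, fix_pt0.mpr (le_NN M u.2)]
      have h2 : (q : G) = (u : G) * t * (u : G)⁻¹ := (congrArg Subtype.val h1).symm
      rw [h2]
      have : (u : G) * t * (u : G)⁻¹ * ((u : G) * t * (u : G)⁻¹) = (u : G) * (t * t) * (u : G)⁻¹ := by
        group
      rw [this, ht2]
      group
  have hinvQ : ∀ q : Q, (q : G)⁻¹ = q := fun q => inv_self_of_sq (hexp q)
  have hcomm : ∀ q q' : Q, (q : G) * q' = q' * q := by
    intro q q'
    have h1 := hinvQ (q * q')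
    rw [Subgroup.coe_mul, mul_inv_rev, hinvQ q, hinvQ q'] at h1
    exact h1.symm
  obtain ⟨qb, hqb⟩ := hsurj (QuotientGroup.mk h)
  have hzfa : z • pt0 M = pt0 M := fix_pt0.mpr H.zN
  have hzfb : z • (QuotientGroup.mk h : G ⧸ NN M) = QuotientGroup.mk h := by
    rw [fix_iff]
    have e : h⁻¹ * z * h = z := by
      rw [mul_assoc, ← hz, ← mul_assoc, inv_mul_cancel, one_mul]
    rw [e]
    exact H.zN
  have hzfix : ∀ p : Q, (p : G) * z = z * p → p = 1 ∨ p = qb := by
    intro p hp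
    have hzf : z • ((p : G) • pt0 M) = (p : G) • pt0 M := by
      rw [← mul_smul, ← hp, mul_smul, hzfa]
    by_cases h1 : (p : G) • pt0 M = pt0 M
    · left
      apply hinj
      rw [h1]
      simp
    by_cases h2 : (p : G) • pt0 M = QuotientGroup.mk h
    · right
      apply hinj
      rw [h2, hqb]
    exfalso
    exact H.z1 (fix3_B H S hB hz hN z (pt0 M) (QuotientGroup.mk h) ((p : G) • pt0 M)
      (Ne.symm (mk_ne_pt0.mpr hN)) (Ne.symm h2) (Ne.symm h1) hzfa hzfb hzf)
  let zq : Q → Q := fun q => ⟨z * q * z, by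
    have := hQ.conj_mem _ q.2 z
    rwa [hzi] at this⟩
  let cc : Q → Q := fun q => q * zq q
  have hccz : ∀ q, ((cc q : Q) : G) * z = z * (cc q) := by
    intro q
    show (q : G) * (z * q * z) * z = z * ((q : G) * (z * q * z))
    have h1' : (q : G) * (z * q * z) = (z * q * z) * q := hcomm q (zq q)
    calc (q : G) * (z * q * z) * z = (z * q * z) * q * z := by rw [h1']
      _ = z * ((q : G) * (z * q * z)) := by group
  have hcc : ∀ q, cc q = 1 ∨ cc q = qb := fun q => hzfix _ (hccz q)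
  have hcc1 : ∀ q, cc q = 1 → q = 1 ∨ q = qb := by
    intro q hq
    apply hzfix
    have h1 : (q : G) * (z * q * z) = 1 := congrArg Subtype.val hq
    have h2 : z * q * z = (q : G)⁻¹ := eq_inv_of_mul_eq_one_right h1
    rw [hinvQ] at h2
    calc (q : G) * z = (z * q * z) * z := by rw [h2]
      _ = z * q * (z * z) := by group
      _ = z * q := by rw [H.z2, mul_one]
  have hmul : ∀ q q', cc (q * q') = cc q * cc q' := by
    intro q q'
    apply Subtype.ext
    show (q : G) * q' * (z * (q * q') * z) = (q * (z * q * z)) * (q' * (z * q' * z))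
    have e : z * ((q : G) * q') * z = (z * q * z) * (z * q' * z) := by
      have : (z * q * z) * (z * q' * z) = z * q * (z * z) * q' * z := by group
      rw [this, H.z2]
      group
    rw [e]
    have h1' : (q' : G) * (z * q * z) = (z * q * z) * q' := hcomm q' (zq q)
    calc (q : G) * q' * ((z * q * z) * (z * q' * z)) = q * (q' * (z * q * z)) * (z * q' * z) := by group
      _ = q * ((z * q * z) * q') * (z * q' * z) := by rw [h1']
      _ = _ := by group
  have hQ4 : 4 < Nat.card Q := by omega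
  obtain ⟨q₁, h11, h12, -, -⟩ := exists_not_mem_four hQ4 1 qb 1 1
  have hc1 : cc q₁ = qb := by
    rcases hcc q₁ with h' | h'
    · rcases hcc1 q₁ h' with h'' | h''
      · exact absurd h'' h11
      · exact absurd h'' h12
    · exact h'
  obtain ⟨q₂, h21, h22, h23, h24⟩ := exists_not_mem_four hQ4 1 qb q₁ (q₁ * qb)
  have hc2 : cc q₂ = qb := by
    rcases hcc q₂ with h' | h'
    · rcases hcc1 q₂ h' with h'' | h''
      · exact absurd h'' h21
      · exact absurd h'' h22
    · exact h'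
  have h3 : cc (q₁ * q₂) = 1 := by
    rw [hmul, hc1, hc2]
    apply Subtype.ext
    exact hexp qb
  rcases hcc1 _ h3 with h4 | h4
  · apply h23
    have h5 : (q₁ : G) * q₂ = 1 := congrArg Subtype.val h4
    apply Subtype.ext
    have h6 : (q₂ : G) = (q₁ : G)⁻¹ := eq_inv_of_mul_eq_one_right h5
    rw [h6, hinvQ]
  · apply h24
    apply Subtype.ext
    have h5 : (q₁ : G) * q₂ = qb := congrArg Subtype.val h4
    show (q₂ : G) = q₁ * qb
    rw [← h5, ← mul_assoc, hexp q₁, one_mul]

/-- A third point. -/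
theorem third_pt {h : G} (hz : h * z = z * h) (hN : h ∉ NN M) :
    ∃ c : G ⧸ NN M, c ≠ pt0 M ∧ c ≠ QuotientGroup.mk h := by
  obtain ⟨x, hx, hx1⟩ : ∃ x ∈ M, x ≠ 1 := by
    by_contra hc
    push Not at hc
    apply H.ne
    rw [Subgroup.eq_bot_iff_forall]
    exact hc
  have hb : (QuotientGroup.mk h : G ⧸ NN M) ≠ pt0 M := mk_ne_pt0.mpr hN
  refine ⟨x • (QuotientGroup.mk h : G ⧸ NN M), ?_, ?_⟩
  · intro hc
    apply hb
    have h1 : x • pt0 M = pt0 M := fix_pt0.mpr (le_NN M hx)
    rw [← h1] at hc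
    exact MulAction.injective _ hc
  · intro hc
    apply hx1
    exact claimC' H S hN hx (fix_iff.mp hc)

/-- The Zassenhaus property. -/
theorem zass_B {h : G} (hz : h * z = z * h) (hN : h ∉ NN M) (hm5 : 5 ≤ Nat.card M) :
    Cfsg.IsZassenhausGroup G (G ⧸ NN M) := by
  have hb : (QuotientGroup.mk h : G ⧸ NN M) ≠ pt0 M := mk_ne_pt0.mpr hN
  refine ⟨⟨?_⟩, ?_, ?_, ⟨z, H.z1, pt0 M, QuotientGroup.mk h, Ne.symm hb, fix_pt0.mpr H.zN, ?_⟩, ?_⟩
  · intro g g' hgg
    obtain ⟨c, hc1, hc2⟩ := third_pt H S hB hz hN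
    have h1 : ∀ y : G ⧸ NN M, (g'⁻¹ * g) • y = y := by
      intro y
      rw [mul_smul, hgg y, inv_smul_smul]
    have h2 := fix3_B H S hB hz hN (g'⁻¹ * g) (pt0 M) (QuotientGroup.mk h) c (Ne.symm hb) (Ne.symm hc2)
      (Ne.symm hc1) (h1 _) (h1 _) (h1 _)
    rw [inv_mul_eq_one] at h2
    exact h2.symm
  · rw [is_two_pretransitive_iff]
    intro x y x' y' hxy hxy'
    obtain ⟨v, hv1, hv2⟩ := two_base H S hB hz hN hxy
    obtain ⟨v', hv1', hv2'⟩ := two_base H S hB hz hN hxy'
    refine ⟨v' * v⁻¹, ?_, ?_⟩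
    · rw [mul_smul, ← hv1, inv_smul_smul, hv1']
    · rw [mul_smul, ← hv2, inv_smul_smul, hv2']
  · exact fix3_B H S hB hz hN
  · rw [fix_iff]
    have e : h⁻¹ * z * h = z := by
      rw [mul_assoc, ← hz, ← mul_assoc, inv_mul_cancel, one_mul]
    rw [e]
    exact H.zN
  · intro Q hQ htr
    by_contra hc
    push Not at hc
    exact no_regular H S hB hz hN hm5 Q hQ htr hc

/-- The two-point stabiliser. -/
theorem E_eq {h : G} (hz : h * z = z * h) (hN : h ∉ NN M) :
    stabilizer G (pt0 M) ⊓ stabilizer G (QuotientGroup.mk h : G ⧸ NN M) = C0 M z := by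
  have hhi : h⁻¹ = h := inv_self_of_sq (K_sq H S hz hN)
  ext g
  rw [Subgroup.mem_inf, mem_stabilizer_iff, mem_stabilizer_iff, fix_pt0, fix_iff, mem_C0, hhi]
  constructor
  · rintro ⟨h1, h2⟩
    exact ⟨h1, K_N2 H S hz hN h1 h2⟩
  · rintro ⟨h1, h2⟩
    refine ⟨h1, ?_⟩
    rw [K_C0 H S hz hN h1 h2]
    exact inv_mem h1

end

end Cfsg.Agent.Lib.TIInv
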