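import Cfsg.Agent.Lib.TIInv.Local

/-!
Counting: orders of `G`, of `N(M)`, the number of involutions.
-/

set_option autoImplicit false
set_option linter.unusedSectionVars false
set_option linter.style.haveILetI false
set_option linter.unusedVariables false

namespace Cfsg.Agent.Lib.TIInv

variable {G : Type*} [Group G] [Finite G]

/-- Splitting a type according to a predicate. -/
theorem card_split {α : Type*} [Finite α] (p : α → Prop) :
    Nat.card {a // p a} + Nat.card {a // ¬ p a} = Nat.card α := by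
  classical
  rw [← Nat.card_sum]
  exact Nat.card_congr (Equiv.sumCompl p)

variable {M : Subgroup G} {z : G}

/-- `C₀ = C_{N}(z)`. -/
abbrev C0 (M : Subgroup G) (z : G) : Subgroup G :=
  NN M ⊓ Subgroup.centralizer ({z} : Set G)

/-- `K = C(z)`. -/
abbrev KK (z : G) : Subgroup G := Subgroup.centralizer ({z} : Set G)

theorem mem_KK {h : G} : h ∈ KK z ↔ h * z = z * h := by
  rw [Subgroup.mem_centralizer_singleton_iff]

theorem mem_C0 {c : G} : c ∈ C0 M z ↔ c ∈ NN M ∧ c * z = z * c := by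
  rw [Subgroup.mem_inf, mem_KK]

variable (H : Hyp M z) (S : Star M)

include H

/-- `|N| = |M| |C₀|`. -/
theorem card_NN : Nat.card (NN M) = Nat.card M * Nat.card (C0 M z) := by
  rw [← Nat.card_prod]
  symm
  refine Nat.card_congr (Equiv.ofBijective
    (fun p : M × C0 M z => (⟨(p.1 : G) * (p.2 : G), mul_mem (le_NN M p.1.2) (mem_C0.mp p.2.2).1⟩ : NN M)) ⟨?_, ?_⟩)
  · rintro ⟨a, c⟩ ⟨a', c'⟩ h
    have h1 : (a : G) * c = a' * c' := congrArg Subtype.val h
    have h2 : (a' : G)⁻¹ * a = c' * (c : G)⁻¹ := by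
      rw [inv_mul_eq_iff_eq_mul, ← mul_assoc, ← h1]
      group
    have h3 : (c' : G) * (c : G)⁻¹ ∈ C0 M z := mul_mem c'.2 (inv_mem c.2)
    have h4 : (a' : G)⁻¹ * a ∈ M := mul_mem (inv_mem a'.2) a.2
    have h5 : (a' : G)⁻¹ * a = 1 := by
      apply eq_one_of_comm_z H h4
      rw [h2]
      exact (mem_C0.mp h3).2
    have h6 : (a : G) = a' := by
      rw [inv_mul_eq_one] at h5
      exact h5.symm
    have h7 : (c : G) = c' := by
      rw [h6] at h1
      exact mul_left_cancel h1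
    exact Prod.ext (Subtype.ext h6) (Subtype.ext h7)
  · rintro ⟨y, hy⟩
    obtain ⟨a, ha, c, hc, hcz, rfl⟩ := H.dec y hy
    exact ⟨(⟨a, ha⟩, ⟨c, mem_C0.mpr ⟨hc, hcz⟩⟩), rfl⟩

/-- The set `Y = K ∖ N`. -/
abbrev YY (M : Subgroup G) (z : G) : Type _ := {h : G // h * z = z * h ∧ h ∉ NN M}

omit [Finite G] in
theorem KK_card_split [Finite G] : Nat.card (C0 M z) + Nat.card (YY M z) = Nat.card (KK z) := by
  classical
  rw [← card_split (fun k : KK z => (k : G) ∈ NN M)]
  congr 1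
  · refine Nat.card_congr ⟨fun c => ⟨⟨c, c.2.2⟩, c.2.1⟩, fun k => ⟨k.1, k.2, k.1.2⟩,
      fun c => rfl, fun k => rfl⟩
  · refine Nat.card_congr ⟨fun y => ⟨⟨y.1, mem_KK.mpr y.2.1⟩, y.2.2⟩,
      fun k => ⟨k.1, mem_KK.mp k.1.2, k.2⟩, fun c => rfl, fun k => rfl⟩

include S

/-- The decomposition of `G ∖ N`. -/
theorem card_compl_NN : Nat.card {g : G // g ∉ NN M} = Nat.card M * (Nat.card (YY M z) * Nat.card M) := by
  rw [← Nat.card_prod, ← Nat.card_prod]
  symm
  have hmem : ∀ (a b : M) (h : YY M z), (a : G) * h.1 * b ∉ NN M := by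
    intro a b h hc
    apply h.2.2
    have h1 := mul_mem (mul_mem (inv_mem (le_NN M a.2)) hc) (inv_mem (le_NN M b.2))
    have e : (a : G)⁻¹ * (a * h.1 * b) * (b : G)⁻¹ = h.1 := by group
    rwa [e] at h1
  refine Nat.card_congr (Equiv.ofBijective
    (fun p : M × (YY M z × M) => (⟨(p.1 : G) * p.2.1.1 * p.2.2, hmem _ _ _⟩ : {g : G // g ∉ NN M}))
    ⟨?_, ?_⟩)
  · rintro ⟨a, h, b⟩ ⟨a', h', b'⟩ e
    have e1 : (a : G) * h.1 * b = a' * h'.1 * b' := congrArg Subtype.val e
    set g := (a : G) * h.1 * b with hg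
    have hgN : g ∉ NN M := hmem a b h
    -- the involution of `N ∩ gNg⁻¹`
    have key : ∀ (a₀ b₀ : M) (h₀ : YY M z), (a₀ : G) * h₀.1 * b₀ = g →
        (a₀ : G) * z * (a₀ : G)⁻¹ ∈ NN M ∧ g⁻¹ * ((a₀ : G) * z * (a₀ : G)⁻¹) * g ∈ NN M := by
      intro a₀ b₀ h₀ eg
      refine ⟨mul_mem (mul_mem (le_NN M a₀.2) H.zN) (inv_mem (le_NN M a₀.2)), ?_⟩
      rw [← eg]
      have e2 : ((a₀ : G) * h₀.1 * b₀)⁻¹ * ((a₀ : G) * z * (a₀ : G)⁻¹) * ((a₀ : G) * h₀.1 * b₀)
          = (b₀ : G)⁻¹ * (h₀.1⁻¹ * (z * h₀.1)) * b₀ := by group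
      rw [e2, ← h₀.2.1]
      have e3 : h₀.1⁻¹ * (h₀.1 * z) = z := by group
      rw [e3]
      exact mul_mem (mul_mem (inv_mem (le_NN M b₀.2)) H.zN) (le_NN M b₀.2)
    obtain ⟨k1, k2⟩ := key a b h rfl
    obtain ⟨k3, k4⟩ := key a' b' h' e1.symm
    -- `z₁ z₂ ∈ M`
    obtain ⟨a1, ha1, hz1⟩ : ∃ a1 ∈ M, (a : G) * z * (a : G)⁻¹ = a1 * z := by
      have h1 := z_inv H (inv_mem a.2)
      rw [inv_inv] at h1
      refine ⟨a * a, mul_mem a.2 a.2, ?_⟩
      calc (a : G) * z * (a : G)⁻¹ = a * (z * (a : G)⁻¹ * z) * z := by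
            rw [mul_assoc (a : G) (z * (a : G)⁻¹ * z) z, mul_assoc (z * (a : G)⁻¹) z z, H.z2, mul_one]
            group
        _ = a * a * z := by rw [h1]
    obtain ⟨a2, ha2, hz2⟩ : ∃ a2 ∈ M, (a' : G) * z * (a' : G)⁻¹ = a2 * z := by
      have h1 := z_inv H (inv_mem a'.2)
      rw [inv_inv] at h1
      refine ⟨a' * a', mul_mem a'.2 a'.2, ?_⟩
      calc (a' : G) * z * (a' : G)⁻¹ = a' * (z * (a' : G)⁻¹ * z) * z := by
            rw [mul_assoc (a' : G) (z * (a' : G)⁻¹ * z) z, mul_assoc (z * (a' : G)⁻¹) z z, H.z2, mul_one]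
            group
        _ = a' * a' * z := by rw [h1]
    rw [hz1] at k2
    rw [hz2] at k4
    have hx : a1 * a2⁻¹ ∈ M := mul_mem ha1 (inv_mem ha2)
    have hx2 : g⁻¹ * (a1 * a2⁻¹) * g ∈ NN M := by
      have e3 : g⁻¹ * (a1 * a2⁻¹) * g = (g⁻¹ * (a1 * z) * g) * (g⁻¹ * (a2 * z) * g)⁻¹ := by
        group
      rw [e3]
      exact mul_mem k2 (inv_mem k4)
    have hx1 := claimC' H S hgN hx hx2
    have ha12 : a1 = a2 := mul_inv_eq_one.mp hx1
    have hzz : (a : G) * z * (a : G)⁻¹ = (a' : G) * z * (a' : G)⁻¹ := by rw [hz1, hz2, ha12]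
    have haa : (a' : G)⁻¹ * a ∈ M := mul_mem (inv_mem a'.2) a.2
    have hcomm : ((a' : G)⁻¹ * a) * z = z * ((a' : G)⁻¹ * a) := by
      have e3 : ((a' : G)⁻¹ * a) * z * ((a' : G)⁻¹ * a)⁻¹ = (a' : G)⁻¹ * ((a : G) * z * (a : G)⁻¹) * a' := by
        group
      rw [hzz] at e3
      have e4 : (a' : G)⁻¹ * ((a' : G) * z * (a' : G)⁻¹) * a' = z := by group
      rw [e4] at e3
      rw [mul_inv_eq_iff_eq_mul] at e3
      exact e3
    have ha1 := eq_one_of_comm_z H haa hcomm
    have hae : (a : G) = a' := by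
      rw [inv_mul_eq_one] at ha1
      exact ha1.symm
    rw [hg, hae] at e1
    have e5 : h.1 * b = h'.1 * b' := by
      have e6 : (a' : G) * (h.1 * b) = a' * (h'.1 * b') := by
        rw [← mul_assoc, ← mul_assoc]
        exact e1
      exact mul_left_cancel e6
    have e7 : h'.1⁻¹ * h.1 = b' * (b : G)⁻¹ := by
      rw [inv_mul_eq_iff_eq_mul, ← mul_assoc, ← e5]
      group
    have e8 : h'.1⁻¹ * h.1 ∈ M := by
      rw [e7]
      exact mul_mem b'.2 (inv_mem b.2)
    have hcomm2 : (h'.1⁻¹ * h.1) * z = z * (h'.1⁻¹ * h.1) := by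
      have h3 : h.1 * z = z * h.1 := h.2.1
      have h4 : h'.1⁻¹ * z = z * h'.1⁻¹ := by
        have := h'.2.1
        rw [inv_mul_eq_iff_eq_mul, ← mul_assoc, this]
        group
      calc (h'.1⁻¹ * h.1) * z = h'.1⁻¹ * (h.1 * z) := by group
        _ = h'.1⁻¹ * (z * h.1) := by rw [h3]
        _ = (h'.1⁻¹ * z) * h.1 := by group
        _ = (z * h'.1⁻¹) * h.1 := by rw [h4]
        _ = z * (h'.1⁻¹ * h.1) := by group
    have e9 := eq_one_of_comm_z H e8 hcomm2
    have hhe : h.1 = h'.1 := by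
      rw [inv_mul_eq_one] at e9
      exact e9.symm
    have hbe : (b : G) = b' := by
      rw [hhe] at e5
      exact mul_left_cancel e5
    exact Prod.ext (Subtype.ext hae) (Prod.ext (Subtype.ext hhe) (Subtype.ext hbe))
  · rintro ⟨g, hg⟩
    obtain ⟨a, ha, b, hb, h1, h2⟩ := exists_h H S hg
    refine ⟨(⟨a, ha⟩, ⟨_, h1, h2⟩, ⟨b⁻¹, inv_mem hb⟩), ?_⟩
    apply Subtype.ext
    show a * (a⁻¹ * g * b) * b⁻¹ = g
    group

/-- The elements outside `N`: order formula. -/
theorem card_G : Nat.card G = Nat.card M * Nat.card (C0 M z) +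
    Nat.card M * (Nat.card (YY M z) * Nat.card M) := by
  rw [← card_NN H, ← card_compl_NN H S, ← card_split (fun g : G => g ∈ NN M)]

omit H S in
/-- The involutions. -/
abbrev II (G : Type*) [Group G] : Type _ := {t : G // orderOf t = 2}

omit S in
/-- Involutions of `N`. -/
theorem card_II_in : Nat.card {t : II G // t.1 ∈ NN M} = Nat.card M := by
  symm
  refine Nat.card_congr (Equiv.ofBijective
    (fun a : M => (⟨⟨(a : G) * z, orderOf_eq_prime (by rw [pow_two]; exact mz_sq H a.2) (mz_ne H a.2)⟩,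
      mul_mem (le_NN M a.2) H.zN⟩ : {t : II G // t.1 ∈ NN M})) ⟨?_, ?_⟩)
  · intro a b e
    have e1 : (a : G) * z = b * z := congrArg (fun t : {t : II G // t.1 ∈ NN M} => t.1.1) e
    exact Subtype.ext (mul_right_cancel e1)
  · rintro ⟨⟨t, ht⟩, htN⟩
    have h2 : t * t = 1 := by
      have := pow_orderOf_eq_one t
      rwa [ht, pow_two] at this
    have h1 : t ≠ 1 := by
      rintro rfl
      simp at ht
    obtain ⟨m, hm, rfl⟩ := invol_form H htN h2 h1
    exact ⟨⟨m, hm⟩, rfl⟩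

/-- Involutions outside `N`. -/
theorem card_compl_eq_mul : Nat.card {g : G // g ∉ NN M} =
    Nat.card {t : II G // t.1 ∉ NN M} * Nat.card M := by
  rw [← Nat.card_prod]
  symm
  have hmem : ∀ (t : {t : II G // t.1 ∉ NN M}) (a : M), t.1.1 * (a : G) ∉ NN M := by
    intro t a hc
    apply t.2
    have := mul_mem hc (inv_mem (le_NN M a.2))
    rwa [mul_inv_cancel_right] at this
  have hsq : ∀ t : II G, t.1 * t.1 = 1 := by
    intro t
    have := pow_orderOf_eq_one t.1
    rwa [t.2, pow_two] at this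
  refine Nat.card_congr (Equiv.ofBijective
    (fun p : {t : II G // t.1 ∉ NN M} × M => (⟨p.1.1.1 * p.2, hmem _ _⟩ : {g : G // g ∉ NN M}))
    ⟨?_, ?_⟩)
  · rintro ⟨t, a⟩ ⟨t', a'⟩ e
    have e1 : t.1.1 * (a : G) = t'.1.1 * a' := congrArg Subtype.val e
    -- `t' = t * (a * a'⁻¹)`
    have e2 : t'.1.1 = t.1.1 * ((a : G) * (a' : G)⁻¹) := by
      rw [← mul_assoc, e1]
      group
    have h1 := t_unique H t.2 (hsq t.1) (mul_mem a.2 (inv_mem a'.2)) (by
      rw [← e2]
      exact hsq t'.1)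
    have haa : (a : G) = a' := mul_inv_eq_one.mp h1
    have htt : t.1.1 = t'.1.1 := by
      rw [haa] at e1
      exact mul_right_cancel e1
    exact Prod.ext (Subtype.ext (Subtype.ext htt)) (Subtype.ext haa)
  · rintro ⟨g, hg⟩
    obtain ⟨m, hm, ht⟩ := S g hg
    have htN : g * m ∉ NN M := fun hc => hg (by
      have := mul_mem hc (inv_mem (le_NN M hm))
      rwa [mul_inv_cancel_right] at this)
    have h1 : g * m ≠ 1 := fun hc => htN (by rw [hc]; exact one_mem _)
    have ho : orderOf (g * m) = 2 := orderOf_eq_prime (by rw [pow_two]; exact ht) h1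
    refine ⟨(⟨⟨g * m, ho⟩, htN⟩, ⟨m⁻¹, inv_mem hm⟩), ?_⟩
    apply Subtype.ext
    show g * m * m⁻¹ = g
    group

/-- The number of involutions outside `N`. -/
theorem card_II_out : Nat.card {t : II G // t.1 ∉ NN M} = Nat.card M * Nat.card (YY M z) := by
  have h1 := card_compl_eq_mul H S
  rw [card_compl_NN H S] at h1
  have hm : 0 < Nat.card M := Nat.card_pos
  apply Nat.eq_of_mul_eq_mul_right hm
  rw [← h1]
  ring

/-- The number of involutions. -/
theorem card_II : Nat.card (II G) = Nat.card M + Nat.card M * Nat.card (YY M z) := by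
  rw [← card_split (fun t : II G => t.1 ∈ NN M), card_II_in H, card_II_out H S]

omit H S in
/-- The conjugacy class of `z` (orbit-stabiliser). -/
theorem card_conj_mul (z : G) : Nat.card {t : G // ∃ g : G, t = g * z * g⁻¹} * Nat.card (KK z) = Nat.card G := by
  classical
  have h := Subgroup.card_mul_index (KK z)
  rw [← h, mul_comm]
  congr 1
  symm
  have hwd : ∀ a b : G, (QuotientGroup.leftRel (KK z)) a b →
      (⟨a * z * a⁻¹, a, rfl⟩ : {t : G // ∃ g : G, t = g * z * g⁻¹}) = ⟨b * z * b⁻¹, b, rfl⟩ := by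
    intro a b hab
    rw [QuotientGroup.leftRel_apply, mem_KK] at hab
    apply Subtype.ext
    show a * z * a⁻¹ = b * z * b⁻¹
    have e : b * z * b⁻¹ = a * ((a⁻¹ * b) * z) * (a⁻¹ * b)⁻¹ * a⁻¹ := by group
    rw [e, hab]
    group
  refine Nat.card_congr (Equiv.ofBijective
    (fun q : G ⧸ KK z => Quotient.liftOn' q (fun g => (⟨g * z * g⁻¹, g, rfl⟩ : {t : G // ∃ g : G, t = g * z * g⁻¹})) hwd)
    ⟨?_, ?_⟩)
  · intro q₁ q₂ e
    induction q₁ using QuotientGroup.induction_on with | H a => ?_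
    induction q₂ using QuotientGroup.induction_on with | H b => ?_
    have e1 : a * z * a⁻¹ = b * z * b⁻¹ := congrArg Subtype.val e
    rw [QuotientGroup.eq, mem_KK]
    calc a⁻¹ * b * z = a⁻¹ * (b * z * b⁻¹) * b := by group
      _ = a⁻¹ * (a * z * a⁻¹) * b := by rw [e1]
      _ = z * (a⁻¹ * b) := by group
  · rintro ⟨t, g, rfl⟩
    exact ⟨QuotientGroup.mk g, rfl⟩

omit S in
/-- Every coset outside `N` contains an involution if there are more involutions than cosets. -/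
theorem star_of_card (hI : M.index < Nat.card (II G)) : Star M := by
  classical
  by_contra hS
  unfold Star at hS
  push Not at hS
  obtain ⟨g, hg, hno⟩ := hS
  have hsq : ∀ t : II G, t.1 * t.1 = 1 := by
    intro t
    have := pow_orderOf_eq_one t.1
    rwa [t.2, pow_two] at this
  let φ : ({t : II G // t.1 ∉ NN M} ⊕ M) ⊕ Unit → G ⧸ M := fun x =>
    match x with
    | Sum.inl (Sum.inl t) => QuotientGroup.mk t.1.1
    | Sum.inl (Sum.inr a) => QuotientGroup.mk ((a : G) * g)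
    | Sum.inr _ => QuotientGroup.mk 1
  have hφ : Function.Injective φ := by
    have h12 : ∀ (t : {t : II G // t.1 ∉ NN M}) (a : M),
        (QuotientGroup.mk t.1.1 : G ⧸ M) ≠ QuotientGroup.mk ((a : G) * g) := by
      intro t a e
      rw [QuotientGroup.eq] at e
      set m := t.1.1⁻¹ * ((a : G) * g) with hm
      have hmM : m ∈ M := e
      have hgm : g * (m⁻¹ * (a : G)) = (a : G)⁻¹ * t.1.1 * a := by
        rw [hm]
        group
      apply hno (m⁻¹ * (a : G)) (mul_mem (inv_mem hmM) a.2)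
      rw [hgm]
      have : (a : G)⁻¹ * t.1.1 * a * ((a : G)⁻¹ * t.1.1 * a) = (a : G)⁻¹ * (t.1.1 * t.1.1) * a := by group
      rw [this, hsq t.1]
      group
    have h13 : ∀ (t : {t : II G // t.1 ∉ NN M}), (QuotientGroup.mk t.1.1 : G ⧸ M) ≠ QuotientGroup.mk 1 := by
      intro t e
      rw [eq_comm, QuotientGroup.eq] at e
      apply t.2
      apply le_NN M
      simpa using e
    have h23 : ∀ (a : M), (QuotientGroup.mk ((a : G) * g) : G ⧸ M) ≠ QuotientGroup.mk 1 := by
      intro a e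
      rw [eq_comm, QuotientGroup.eq] at e
      apply hg
      have h1 : (a : G) * g ∈ M := by simpa using e
      have := mul_mem (inv_mem a.2) h1
      rw [inv_mul_cancel_left] at this
      exact le_NN M this
    rintro (⟨t | a⟩ | ⟨⟩) (⟨t' | a'⟩ | ⟨⟩) e
    · congr 2
      have e1 : (QuotientGroup.mk t.1.1 : G ⧸ M) = QuotientGroup.mk t'.1.1 := e
      rw [QuotientGroup.eq] at e1
      have h1 := t_unique H t.2 (hsq t.1) e1 (by
        rw [mul_inv_cancel_left]
        exact hsq t'.1)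
      have h2 : t.1.1 = t'.1.1 := (inv_mul_eq_one.mp h1)
      exact Subtype.ext (Subtype.ext h2)
    · exact absurd e (h12 t a')
    · exact absurd e (h13 t)
    · exact absurd e.symm (h12 t' a)
    · congr 2
      have e1 : (QuotientGroup.mk ((a : G) * g) : G ⧸ M) = QuotientGroup.mk ((a' : G) * g) := e
      rw [QuotientGroup.eq] at e1
      apply Subtype.ext
      by_contra hne
      have hx : (a : G)⁻¹ * a' ∈ M := mul_mem (inv_mem a.2) a'.2
      have hx1 : (a : G)⁻¹ * a' ≠ 1 := by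
        intro h
        exact hne (inv_mul_eq_one.mp h)
      apply hg
      have h5 : g⁻¹ * ((a : G)⁻¹ * a') * g⁻¹⁻¹ ∈ M := by
        have : g⁻¹ * ((a : G)⁻¹ * a') * g⁻¹⁻¹ = ((a : G) * g)⁻¹ * ((a' : G) * g) := by group
        rw [this]
        exact e1
      have := H.ti g⁻¹ _ hx hx1 h5
      simpa using inv_mem this
    · exact absurd e (h23 a)
    · exact absurd e.symm (h13 t')
    · exact absurd e.symm (h23 a')
    · rfl
  have h1 := Nat.card_le_card_of_injective φ hφ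
  have h2 : Nat.card (({t : II G // t.1 ∉ NN M} ⊕ M) ⊕ Unit) =
      Nat.card {t : II G // t.1 ∉ NN M} + Nat.card M + 1 := by
    rw [Nat.card_sum, Nat.card_sum]
    simp
  have h3 := card_split (fun t : II G => t.1 ∈ NN M)
  rw [card_II_in H] at h3
  have h4 : Nat.card (G ⧸ M) = M.index := rfl
  omega

end Cfsg.Agent.Lib.TIInv
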