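import Cfsg.Agent.Lib.TIInv.Basic

/-!
Local consequences of `Star`: two-point stabilisers are inverted by swapping involutions.
-/

set_option autoImplicit false
set_option linter.unusedSectionVars false
set_option linter.style.haveILetI false
set_option linter.unusedVariables false

namespace Cfsg.Agent.Lib.TIInv

variable {G : Type*} [Group G] [Finite G] {M : Subgroup G} {z : G} (H : Hyp M z) (S : Star M)

include H S

theorem claimC {t x : G} (ht : t ∉ NN M) (ht2 : t * t = 1) (hx : x ∈ M) (hxt : t * x * t ∈ NN M) :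
    x = 1 := by
  have htinv : t⁻¹ = t := inv_self_of_sq ht2
  obtain ⟨a, ha, hau⟩ := exists_u H S ht ht2
  set b := a * a with hb
  have hbM : b ∈ M := mul_mem ha ha
  have hub : a * z * a⁻¹ = b * z := by
    have h1 := z_inv H (inv_mem ha)
    rw [inv_inv] at h1
    calc a * z * a⁻¹ = a * (z * a⁻¹ * z) * z := by
          rw [mul_assoc a (z * a⁻¹ * z) z, mul_assoc (z * a⁻¹) z z, H.z2, mul_one]; group
      _ = b * z := by rw [h1]
  rw [hub] at hau
  set u := b * z with hu
  have huN : u ∈ NN M := mul_mem (le_NN M hbM) H.zN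
  have huu : u * u = 1 := mz_sq H hbM
  have hu1 : u ≠ 1 := mz_ne H hbM
  set x' := t * x * t with hx'
  -- `u` inverts `x'`
  have h1 : u * x' * u = x'⁻¹ := by
    have h2 := inv_of_invol H huN huu hu1 hx
    calc u * x' * u = u * t * x * t * u := by rw [hx']; group
      _ = t * (u * x * u) * t := by
          have e1 : u * t * x * t * u = (u * t) * x * (t * u) := by group
          have e3 : u * t = t * u := hau.symm
          rw [e1, e3]
          nth_rw 2 [hau]
          group
      _ = t * x⁻¹ * t := by rw [h2]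
      _ = x'⁻¹ := by
          have : (t * x * t)⁻¹ = t⁻¹ * x⁻¹ * t⁻¹ := by group
          rw [hx', this, htinv]
  obtain ⟨m₂, hm₂, c, hc, hcz, hx'dec⟩ := H.dec x' hxt
  have hzc : z * c * z = c := by rw [← hcz, mul_assoc, H.z2, mul_one]
  have hzm₂ := z_inv H hm₂
  have hzb := z_inv H hbM
  -- the two expressions
  have e1 : u * x' * u = (b * m₂⁻¹ * (c * b⁻¹ * c⁻¹)) * c := by
    rw [hx'dec, hu]
    calc b * z * (m₂ * c) * (b * z) = b * (z * m₂ * z) * (z * c * z) * (z * b * z) := by
          have : b * (z * m₂ * z) * (z * c * z) * (z * b * z)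
              = b * z * m₂ * (z * z) * c * (z * z) * b * z := by group
          rw [this, H.z2]
          group
      _ = (b * m₂⁻¹ * (c * b⁻¹ * c⁻¹)) * c := by rw [hzm₂, hzc, hzb]; group
  have e2 : x'⁻¹ = (c⁻¹ * m₂⁻¹ * c) * c⁻¹ := by rw [hx'dec]; group
  have hm4 : b * m₂⁻¹ * (c * b⁻¹ * c⁻¹) ∈ M :=
    mul_mem (mul_mem hbM (inv_mem hm₂)) (NN_conj hc (inv_mem hbM))
  have hm5 : c⁻¹ * m₂⁻¹ * c ∈ M := by
    have := NN_conj (inv_mem hc) (inv_mem hm₂)
    rwa [inv_inv] at this
  rw [e1, e2] at h1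
  set m₄ := b * m₂⁻¹ * (c * b⁻¹ * c⁻¹) with hm₄
  set m₅ := c⁻¹ * m₂⁻¹ * c with hm₅
  have hcc : c * c = m₄⁻¹ * m₅ := by
    have : m₄ * c * c = m₅ := by
      have := congrArg (· * c) h1
      simpa [mul_assoc] using this
    rw [← this]
    group
  have hccM : c * c ∈ M := by rw [hcc]; exact mul_mem (inv_mem hm4) hm5
  have hcc1 : c * c = 1 := by
    apply eq_one_of_comm_z H hccM
    calc c * c * z = c * (c * z) := by group
      _ = c * (z * c) := by rw [hcz]
      _ = (c * z) * c := by group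
      _ = z * c * c := by rw [hcz]
      _ = z * (c * c) := by group
  rcases C0_invol H hc hcz hcc1 with rfl | rfl
  · by_contra hne
    apply ht
    apply H.ti t x hx hne
    rw [htinv]
    have : x' = m₂ := by rw [hx'dec, mul_one]
    rw [← hx', this]
    exact hm₂
  · have h3 : x' * x' = 1 := by rw [hx'dec]; exact mz_sq H hm₂
    have h4 : x' * x' = t * (x * x) * t := by
      rw [hx']
      have : t * x * t * (t * x * t) = t * x * (t * t) * x * t := by group
      rw [this, ht2]
      group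
    rw [h4] at h3
    have h5 : x * x = 1 := by
      have : t * (t * (x * x) * t) * t = x * x := by
        have : t * (t * (x * x) * t) * t = (t * t) * (x * x) * (t * t) := by group
        rw [this, ht2]
        group
      rw [← this, h3]
      simpa using ht2
    exact eq_one_of_sq_M H hx h5

theorem claimC' {g x : G} (hg : g ∉ NN M) (hx : x ∈ M) (h : g⁻¹ * x * g ∈ NN M) : x = 1 := by
  obtain ⟨m, hm, ht⟩ := S g hg
  have htN : g * m ∉ NN M := fun hc => hg (by
    have := mul_mem hc (inv_mem (le_NN M hm))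
    rwa [mul_inv_cancel_right] at this)
  apply claimC H S htN ht hx
  have hti : (g * m)⁻¹ = g * m := inv_self_of_sq ht
  have e : g * m * x * (g * m) = m⁻¹ * (g⁻¹ * x * g) * m := by
    calc g * m * x * (g * m) = (g * m)⁻¹ * x * (g * m) := by rw [hti]
      _ = _ := by group
  rw [e]
  exact mul_mem (mul_mem (inv_mem (le_NN M hm)) h) (le_NN M hm)

/-- A swapping involution inverts the two-point stabiliser. -/
theorem swap_inv {t y : G} (ht : t ∉ NN M) (ht2 : t * t = 1) (hy : y ∈ NN M)
    (hty : t * y * t ∈ NN M) : t * y * t = y⁻¹ := by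
  have htinv : t⁻¹ = t := inv_self_of_sq ht2
  obtain ⟨m₀, hm₀, c, hc, hcz, rfl⟩ := H.dec y hy
  have hg : t * c ∉ NN M := fun hcc => ht (by
    have := mul_mem hcc (inv_mem hc)
    rwa [mul_inv_cancel_right] at this)
  obtain ⟨m₁, hm₁, h⟩ := S _ hg
  set t' := t * c * m₁ with ht'
  set u := t * t' with hu
  have hu' : u = c * m₁ := by
    rw [hu, ht']
    calc t * (t * c * m₁) = (t * t) * c * m₁ := by group
      _ = c * m₁ := by rw [ht2, one_mul]
  have huinv : t * u * t = u⁻¹ := by
    rw [hu, mul_inv_rev, inv_self_of_sq h, htinv]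
    calc t * (t * t') * t = (t * t) * t' * t := by group
      _ = t' * t := by rw [ht2, one_mul]
  have huN : u ∈ NN M := by rw [hu']; exact mul_mem hc (le_NN M hm₁)
  -- `x = u y⁻¹ ∈ M`
  set x := u * (m₀ * c)⁻¹ with hx
  have hxeq : x = (c * m₁ * c⁻¹) * m₀⁻¹ := by
    rw [hx, hu']; group
  have hxM : x ∈ M := by
    rw [hxeq]
    exact mul_mem (NN_conj hc hm₁) (inv_mem hm₀)
  have hxt : t * x * t ∈ NN M := by
    have e : t * x * t = (t * u * t) * (t * (m₀ * c) * t)⁻¹ := by
      rw [hx]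
      have : (t * (m₀ * c) * t)⁻¹ = t⁻¹ * (m₀ * c)⁻¹ * t⁻¹ := by group
      rw [this, htinv]
      have : t * u * t * (t * (m₀ * c)⁻¹ * t) = t * u * (t * t) * (m₀ * c)⁻¹ * t := by group
      rw [this, ht2]
      group
    rw [e, huinv]
    exact mul_mem (inv_mem huN) (inv_mem hty)
  have hx1 := claimC H S ht ht2 hxM hxt
  have hue : u = m₀ * c := by
    rw [hx] at hx1
    exact mul_inv_eq_one.mp hx1
  rw [← hue, huinv]

/-- The version at a general point. -/
theorem swap_inv' {τ k y : G} (hτ2 : τ * τ = 1) (hmv : k⁻¹ * τ * k ∉ NN M)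
    (hk : k⁻¹ * y * k ∈ NN M) (hτk : (τ * k)⁻¹ * y * (τ * k) ∈ NN M) : τ * y * τ = y⁻¹ := by
  have hτi : τ⁻¹ = τ := inv_self_of_sq hτ2
  have ht2 : (k⁻¹ * τ * k) * (k⁻¹ * τ * k) = 1 := by
    have : (k⁻¹ * τ * k) * (k⁻¹ * τ * k) = k⁻¹ * (τ * τ) * k := by group
    rw [this, hτ2]
    group
  have e : (k⁻¹ * τ * k) * (k⁻¹ * y * k) * (k⁻¹ * τ * k) = (τ * k)⁻¹ * y * (τ * k) := by
    rw [mul_inv_rev, hτi]
    group
  have h1 := swap_inv H S hmv ht2 hk (by rw [e]; exact hτk)
  have e2 : (k⁻¹ * τ * k) * (k⁻¹ * y * k) * (k⁻¹ * τ * k) = k⁻¹ * (τ * y * τ) * k := by group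
  rw [e2] at h1
  have h3 : τ * y * τ = k * (k⁻¹ * (τ * y * τ) * k) * k⁻¹ := by group
  rw [h3, h1]
  group

/-- Double coset decomposition. -/
theorem exists_h {g : G} (hg : g ∉ NN M) :
    ∃ a ∈ M, ∃ b ∈ M, (a⁻¹ * g * b) * z = z * (a⁻¹ * g * b) ∧ a⁻¹ * g * b ∉ NN M := by
  obtain ⟨m, hm, ht⟩ := S g hg
  have htN : g * m ∉ NN M := fun hc => hg (by
    have := mul_mem hc (inv_mem (le_NN M hm))
    rwa [mul_inv_cancel_right] at this)
  obtain ⟨a, ha, hau⟩ := exists_u H S htN ht
  refine ⟨a, ha, m * a, mul_mem hm ha, ?_, ?_⟩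
  · have e : a⁻¹ * g * (m * a) = a⁻¹ * (g * m) * a := by group
    rw [e]
    calc a⁻¹ * (g * m) * a * z = a⁻¹ * ((g * m) * (a * z * a⁻¹)) * a := by group
      _ = a⁻¹ * ((a * z * a⁻¹) * (g * m)) * a := by rw [hau]
      _ = z * (a⁻¹ * (g * m) * a) := by group
  · intro hc
    apply hg
    have := mul_mem (mul_mem (le_NN M ha) hc) (inv_mem (le_NN M (mul_mem hm ha)))
    have e : a * (a⁻¹ * g * (m * a)) * (m * a)⁻¹ = g := by group
    rwa [e] at this

theorem K_sq {h : G} (hz : h * z = z * h) (hN : h ∉ NN M) : h * h = 1 := by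
  obtain ⟨m, hm, ht⟩ := S h hN
  have htN : h * m ∉ NN M := fun hc => hN (by
    have := mul_mem hc (inv_mem (le_NN M hm))
    rwa [mul_inv_cancel_right] at this)
  have hti : (h * m)⁻¹ = h * m := inv_self_of_sq ht
  have hzh : h⁻¹ * z * h = z := by rw [mul_assoc, inv_mul_eq_iff_eq_mul, hz]
  have e : h * m * z * (h * m) = m⁻¹ * z * m := by
    calc h * m * z * (h * m) = (h * m)⁻¹ * z * (h * m) := by rw [hti]
      _ = m⁻¹ * (h⁻¹ * z * h) * m := by group
      _ = m⁻¹ * z * m := by rw [hzh]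
  have h1 := swap_inv H S htN ht H.zN (by
    rw [e]
    exact mul_mem (mul_mem (inv_mem (le_NN M hm)) H.zN) (le_NN M hm))
  rw [inv_self_of_sq H.z2] at h1
  have h2 : (h * m) * z = z * (h * m) := by
    calc (h * m) * z = (h * m) * z * (h * m) * (h * m) := by
          rw [mul_assoc ((h * m) * z), ht, mul_one]
      _ = z * (h * m) := by rw [h1]
  have h3 : m * z = z * m := by
    have h4 : h * (m * z) = h * (z * m) := by
      calc h * (m * z) = (h * m) * z := by group
        _ = z * (h * m) := h2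
        _ = (z * h) * m := by group
        _ = (h * z) * m := by rw [hz]
        _ = h * (z * m) := by group
    exact mul_left_cancel h4
  have hm1 := eq_one_of_comm_z H hm h3
  rw [hm1, mul_one] at ht
  exact ht

/-- Elements of `N ∩ hNh` commute with `z`. -/
theorem K_N2 {h y : G} (hz : h * z = z * h) (hN : h ∉ NN M) (hy : y ∈ NN M)
    (hhy : h * y * h ∈ NN M) : y * z = z * y := by
  have hh := K_sq H S hz hN
  have hhz : h * z * h = z := by rw [hz, mul_assoc, hh, mul_one]
  have h1 := swap_inv H S hN hh hy hhy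
  have hzy : z * y ∈ NN M := mul_mem H.zN hy
  have h2 := swap_inv H S hN hh hzy (by
    have : h * (z * y) * h = (h * z * h) * (h * y * h) := by
      have : (h * z * h) * (h * y * h) = h * z * (h * h) * y * h := by group
      rw [this, hh]
      group
    rw [this, hhz]
    exact mul_mem H.zN hhy)
  have h3 : h * (z * y) * h = (h * z * h) * (h * y * h) := by
    have : (h * z * h) * (h * y * h) = h * z * (h * h) * y * h := by group
    rw [this, hh]
    group
  rw [h3, hhz, h1, mul_inv_rev, inv_self_of_sq H.z2] at h2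
  have h4 : y * (z * y⁻¹) = y * (y⁻¹ * z) := by rw [h2]
  have h5 : y * z * y⁻¹ = z := by
    rw [mul_assoc, h4]; group
  rw [mul_inv_eq_iff_eq_mul] at h5
  exact h5

/-- `h` inverts `C₀`. -/
theorem K_C0 {h c : G} (hz : h * z = z * h) (hN : h ∉ NN M) (hc : c ∈ NN M) (hcz : c * z = z * c) :
    h * c * h = c⁻¹ := by
  have hh := K_sq H S hz hN
  have hhi : h⁻¹ = h := inv_self_of_sq hh
  have hg : h * c ∉ NN M := fun hcc => hN (by
    have := mul_mem hcc (inv_mem hc)
    rwa [mul_inv_cancel_right] at this)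
  obtain ⟨m₁, hm₁, ht⟩ := S _ hg
  set t' := h * c * m₁ with ht'
  set u := h * t' with hu
  have hu' : u = c * m₁ := by
    rw [hu, ht']
    calc h * (h * c * m₁) = (h * h) * c * m₁ := by group
      _ = c * m₁ := by rw [hh, one_mul]
  have huinv : h * u * h = u⁻¹ := by
    rw [hu, mul_inv_rev, inv_self_of_sq ht, hhi]
    calc h * (h * t') * h = (h * h) * t' * h := by group
      _ = t' * h := by rw [hh, one_mul]
  have huN : u ∈ NN M := by rw [hu']; exact mul_mem hc (le_NN M hm₁)
  have huz := K_N2 H S hz hN huN (by rw [huinv]; exact inv_mem huN)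
  have hm : m₁ * z = z * m₁ := by
    rw [hu'] at huz
    have h4 : c * (m₁ * z) = c * (z * m₁) := by
      calc c * (m₁ * z) = c * m₁ * z := by group
        _ = z * (c * m₁) := huz
        _ = (z * c) * m₁ := by group
        _ = (c * z) * m₁ := by rw [hcz]
        _ = c * (z * m₁) := by group
    exact mul_left_cancel h4
  have hm1 := eq_one_of_comm_z H hm₁ hm
  rw [hm1, mul_one] at hu'
  rw [← hu', huinv]

/-- `C₀` is abelian (given some `h`). -/
theorem C0_comm {h c d : G} (hz : h * z = z * h) (hN : h ∉ NN M) (hc : c ∈ NN M)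
    (hcz : c * z = z * c) (hd : d ∈ NN M) (hdz : d * z = z * d) : c * d = d * c := by
  have hh := K_sq H S hz hN
  have h1 := K_C0 H S hz hN hc hcz
  have h2 := K_C0 H S hz hN hd hdz
  have h3 := K_C0 H S hz hN (mul_mem hc hd) (by
    calc c * d * z = c * (d * z) := by group
      _ = c * (z * d) := by rw [hdz]
      _ = (c * z) * d := by group
      _ = (z * c) * d := by rw [hcz]
      _ = z * (c * d) := by group)
  have h4 : h * (c * d) * h = (h * c * h) * (h * d * h) := by
    have : (h * c * h) * (h * d * h) = h * c * (h * h) * d * h := by group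
    rw [this, hh]
    group
  rw [h4, h1, h2, mul_inv_rev] at h3
  have h5 : (c * d)⁻¹ = (d * c)⁻¹ := by rw [mul_inv_rev, mul_inv_rev, h3]
  exact inv_injective h5

/-- If the product of two elements of `K ∖ N` lies outside `N` then `C₀ = {1, z}`. -/
theorem C0_two {h k c : G} (hz : h * z = z * h) (hN : h ∉ NN M) (kz : k * z = z * k) (kN : k ∉ NN M)
    (hk : h * k ∉ NN M) (hc : c ∈ NN M) (hcz : c * z = z * c) : c = 1 ∨ c = z := by
  have hkz : (h * k) * z = z * (h * k) := by
    calc h * k * z = h * (k * z) := by group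
      _ = h * (z * k) := by rw [kz]
      _ = (h * z) * k := by group
      _ = (z * h) * k := by rw [hz]
      _ = z * (h * k) := by group
  have hh := K_sq H S hz hN
  have kk := K_sq H S kz kN
  have hkk := K_sq H S hkz hk
  have h1 := K_C0 H S hkz hk hc hcz
  have h2 := K_C0 H S hz hN hc hcz
  have h3 := K_C0 H S kz kN hc hcz
  have hcomm : k * h = h * k := by
    have : (h * k)⁻¹ = h * k := inv_self_of_sq hkk
    rw [mul_inv_rev, inv_self_of_sq hh, inv_self_of_sq kk] at this
    exact this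
  have h4 : h * k * c * (h * k) = h * (k * c * k) * h := by
    calc h * k * c * (h * k) = h * k * c * (k * h) := by rw [hcomm]
      _ = _ := by group
  rw [h4, h3] at h1
  have h5 : h * c⁻¹ * h = (h * c * h)⁻¹ := by
    have hhi : h⁻¹ = h := inv_self_of_sq hh
    rw [mul_inv_rev, mul_inv_rev, hhi]
    group
  rw [h5, h2, inv_inv] at h1
  have hcc : c * c = 1 := by
    nth_rw 1 [h1]
    group
  exact C0_invol H hc hcz hcc

/-- Fixed points of `z`. -/
theorem fix_z {k : G} (hk : k⁻¹ * z * k ∈ NN M) : ∃ a ∈ M, (k * a) * z = z * (k * a) := by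
  have h2 : (k⁻¹ * z * k) * (k⁻¹ * z * k) = 1 := by
    have : (k⁻¹ * z * k) * (k⁻¹ * z * k) = k⁻¹ * (z * z) * k := by group
    rw [this, H.z2]
    group
  have h1 : k⁻¹ * z * k ≠ 1 := by
    intro h
    apply H.z1
    have : z = k * (k⁻¹ * z * k) * k⁻¹ := by group
    rw [this, h]
    group
  obtain ⟨m, hm, hme⟩ := invol_form H hk h2 h1
  obtain ⟨a, ha, hae⟩ := exists_conj_mz H hm
  refine ⟨a, ha, ?_⟩
  have h3 : k⁻¹ * z * k = a * z * a⁻¹ := by rw [hme, hae]
  have h4 : z = k * (a * z * a⁻¹) * k⁻¹ := by rw [← h3]; group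
  calc k * a * z = k * (a * z * a⁻¹) * k⁻¹ * (k * a) := by group
    _ = z * (k * a) := by rw [← h4]

/-- Elements of `C₀` of order greater than two have fixed points only among those of `z`. -/
theorem fix_C0 {y k : G} (hyN : y ∈ NN M) (hyz : y * z = z * y) (hyy : y * y ≠ 1)
    (hk : k⁻¹ * y * k ∈ NN M) : k⁻¹ * z * k ∈ NN M := by
  by_contra hmv
  have h1 : (z * k)⁻¹ * y * (z * k) = k⁻¹ * y * k := by
    rw [mul_inv_rev, inv_self_of_sq H.z2]
    have : k⁻¹ * z * y * (z * k) = k⁻¹ * (z * y) * (z * k) := by group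
    rw [this, ← hyz]
    have : k⁻¹ * (y * z) * (z * k) = k⁻¹ * y * (z * z) * k := by group
    rw [this, H.z2]
    group
  have h2 := swap_inv' H S H.z2 hmv hk (by rw [h1]; exact hk)
  apply hyy
  have h3 : z * y * z = y := by rw [← hyz, mul_assoc, H.z2, mul_one]
  rw [h3] at h2
  nth_rw 1 [h2]
  group

end Cfsg.Agent.Lib.TIInv
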